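import Cfsg.Agent.H887.OmegaBridge
import Cfsg.Agent.LieClassical.OrthFinite

/-!
# Siegel elements as matrices (helper682, S3499)
-/

set_option autoImplicit false
set_option linter.unusedSectionVars false
set_option linter.unusedVariables false

namespace Cfsg.Agent.H682.EP

open QuadraticMap Matrix Cfsg.Agent.LieClassical.OrthCore Cfsg.Agent.LieClassical.OrthTrans
  Cfsg.Agent.LieClassical.OrthFinite Cfsg.Agent.H887.OmegaBridge
open scoped MatrixGroups

variable {ι : Type} [Fintype ι] [DecidableEq ι] {F : Type*} [Field F] {Q : (ι → F) → F}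
  (hQ : Cfsg.Geo.IsNondegenerateQuadraticForm Q)

theorem gl_ext {g h : GL ι F} (H : ∀ x, (g : Matrix ι ι F) *ᵥ x = (h : Matrix ι ι F) *ᵥ x) : g = h := by
  apply (le ι F).injective
  apply LinearEquiv.ext
  intro x
  rw [le_apply, le_apply]
  exact H x

/-- the Siegel element -/
noncomputable def sg (u w : ι → F) (hu : Q u = 0) (hw : polar Q u w = 0) : GL ι F :=
  (le ι F).symm (siegel (qf Q hQ) u w hu hw)

theorem sg_apply {u w : ι → F} (hu : Q u = 0) (hw : polar Q u w = 0) (x : ι → F) :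
    (sg hQ u w hu hw : Matrix ι ι F) *ᵥ x = x + polar Q u x • w - polar Q w x • u - (Q w * polar Q u x) • u := by
  unfold sg
  rw [le_symm_mulVec]
  exact siegel_apply (Q := qf Q hQ) hu hw x

theorem sg_mem [Finite F] (hn : 7 ≤ Fintype.card ι) {u w : ι → F} (hu : Q u = 0) (hw : polar Q u w = 0) :
    sg hQ u w hu hw ∈ Cfsg.Geo.omegaGL Q := by
  have hdim : Module.finrank F (ι → F) = Fintype.card ι := Module.finrank_fintype_fun_eq_card F
  have hG : Good (qf Q hQ) := good_of_finite (nondeg_qf Q hQ) (by omega)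
  rw [mem_omegaGL_iff Q hQ hG]
  unfold sg
  rw [MulEquiv.apply_symm_apply]
  exact siegel_mem_E _ _

theorem sg_mul {u w w' : ι → F} (hu : Q u = 0) (hw : polar Q u w = 0) (hw' : polar Q u w' = 0)
    (h : polar Q u (w + w') = 0) : sg hQ u w hu hw * sg hQ u w' hu hw' = sg hQ u (w + w') hu h := by
  unfold sg
  rw [← map_mul, siegel_mul (Q := qf Q hQ) hu hw hw' h]

theorem sg_conj {g : GL ι F} (hg : ∀ v, Q ((g : Matrix ι ι F) *ᵥ v) = Q v) {u w : ι → F} (hu : Q u = 0)
    (hw : polar Q u w = 0) (hu' : Q ((g : Matrix ι ι F) *ᵥ u) = 0)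
    (hw' : polar Q ((g : Matrix ι ι F) *ᵥ u) ((g : Matrix ι ι F) *ᵥ w) = 0) :
    g * sg hQ u w hu hw * g⁻¹ = sg hQ ((g : Matrix ι ι F) *ᵥ u) ((g : Matrix ι ι F) *ᵥ w) hu' hw' := by
  apply (le ι F).injective
  unfold sg
  rw [map_mul, map_mul, map_inv, MulEquiv.apply_symm_apply, MulEquiv.apply_symm_apply]
  exact siegel_conj (Q := qf Q hQ) (g := le ι F g) hg hu hw hu' hw'

theorem polar_fix {g : GL ι F} (hg : ∀ v, Q ((g : Matrix ι ι F) *ᵥ v) = Q v) (u v : ι → F) :
    polar Q ((g : Matrix ι ι F) *ᵥ u) ((g : Matrix ι ι F) *ᵥ v) = polar Q u v := by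
  unfold polar
  rw [← Matrix.mulVec_add, hg, hg, hg]

include hQ in
theorem polar_smul_l (a : F) (u v : ι → F) : polar Q (a • u) v = a * polar Q u v := hQ.polar_bilinear.smul_left a u v

include hQ in
theorem polar_smul_r (a : F) (u v : ι → F) : polar Q u (a • v) = a * polar Q u v := hQ.polar_bilinear.smul_right a u v

include hQ in
theorem polar_add_l (u u' v : ι → F) : polar Q (u + u') v = polar Q u v + polar Q u' v := hQ.polar_bilinear.add_left u u' v

include hQ in
theorem polar_add_r (u v v' : ι → F) : polar Q u (v + v') = polar Q u v + polar Q u v' := hQ.polar_bilinear.add_right u v v'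

include hQ in
theorem polar_self_sing {u : ι → F} (hu : Q u = 0) : polar Q u u = 0 := by
  have h1 : Q (u + u) = 4 * Q u := by
    have : u + u = (2 : F) • u := by rw [two_smul]
    rw [this, hQ.smul]
    norm_num
  unfold polar
  rw [h1, hu]
  ring

/-- scaling -/
theorem sg_smul {u w : ι → F} {a b : F} (hu : Q u = 0) (hw : polar Q u w = 0) (hu' : Q (a • u) = 0)
    (hw' : polar Q (a • u) (b • w) = 0) (h : polar Q u ((a * b) • w) = 0) :
    sg hQ (a • u) (b • w) hu' hw' = sg hQ u ((a * b) • w) hu h := by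
  apply gl_ext
  intro x
  rw [sg_apply, sg_apply, polar_smul_l hQ, polar_smul_l hQ, polar_smul_l hQ, hQ.smul, hQ.smul]
  module

/-- modulo `u` -/
theorem sg_add_self {u w : ι → F} {a : F} (hu : Q u = 0) (hw : polar Q u w = 0) (hw' : polar Q u (w + a • u) = 0) :
    sg hQ u (w + a • u) hu hw' = sg hQ u w hu hw := by
  have h1 : Q (w + a • u) = Q w := by
    have h2 : polar Q w (a • u) = 0 := by rw [polar_smul_r hQ, polar_comm, hw, mul_zero]
    have h3 : Q (w + a • u) = Q w + Q (a • u) + polar Q w (a • u) := by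
      unfold polar
      ring
    rw [h3, h2, hQ.smul, hu, mul_zero, add_zero, add_zero]
  apply gl_ext
  intro x
  rw [sg_apply, sg_apply, h1, polar_add_l hQ, polar_smul_l hQ]
  module

theorem sg_congr {u w u' w' : ι → F} (hu : Q u = 0) (hw : polar Q u w = 0) (hu' : Q u' = 0) (hw' : polar Q u' w' = 0)
    (e1 : u = u') (e2 : w = w') : sg hQ u w hu hw = sg hQ u' w' hu' hw' := by
  subst e1
  subst e2
  rfl

theorem sg_inv {u w : ι → F} (hu : Q u = 0) (hw : polar Q u w = 0) (hw' : polar Q u (-w) = 0) :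
    (sg hQ u w hu hw)⁻¹ = sg hQ u (-w) hu hw' := by
  have h0 : polar Q u (w + -w) = 0 := by rw [polar_add_r hQ, hw, hw', add_zero]
  rw [inv_eq_iff_mul_eq_one, sg_mul hQ hu hw hw' h0]
  apply gl_ext
  intro x
  have e : Q (w + -w) = 0 := by
    rw [add_neg_cancel]
    have := hQ.smul 0 w
    rw [zero_smul] at this
    rw [this]
    ring
  have e2 : polar Q (w + -w) x = 0 := by
    have := polar_smul_l hQ 0 w x
    rw [add_neg_cancel, ← zero_smul F w, this, zero_mul]
  rw [sg_apply, e, e2, add_neg_cancel, smul_zero, zero_mul, zero_smul, sub_zero, sub_zero, add_zero, Units.val_one,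
    Matrix.one_mulVec]

/-- **The commutator with a semisimple element.** -/
theorem sg_comm {c : GL ι F} (hc : ∀ v, Q ((c : Matrix ι ι F) *ᵥ v) = Q v) {u w : ι → F} (hu : Q u = 0)
    (hw : polar Q u w = 0) {a b : F} (hcu : (c : Matrix ι ι F) *ᵥ u = a • u) (hcw : (c : Matrix ι ι F) *ᵥ w = b • w)
    (h : polar Q u ((1 - a * b) • w) = 0) :
    sg hQ u w hu hw * c * (sg hQ u w hu hw)⁻¹ * c⁻¹ = sg hQ u ((1 - a * b) • w) hu h := by
  have hw1 : polar Q u (-w) = 0 := by
    have := polar_smul_r hQ (-1) u w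
    rw [neg_one_smul] at this
    rw [this, hw, mul_zero]
  have hu' : Q ((c : Matrix ι ι F) *ᵥ u) = 0 := by rw [hc, hu]
  have hw' : polar Q ((c : Matrix ι ι F) *ᵥ u) ((c : Matrix ι ι F) *ᵥ (-w)) = 0 := by rw [polar_fix hc, hw1]
  have e1 : c * (sg hQ u w hu hw)⁻¹ * c⁻¹ = sg hQ ((c : Matrix ι ι F) *ᵥ u) ((c : Matrix ι ι F) *ᵥ (-w)) hu' hw' := by
    rw [sg_inv hQ hu hw hw1, sg_conj hQ hc hu hw1]
  have hu2 : Q (a • u) = 0 := by rw [← hcu]; exact hu'
  have e3 : (c : Matrix ι ι F) *ᵥ (-w) = (-b) • w := by rw [Matrix.mulVec_neg, hcw, neg_smul]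
  have hw2 : polar Q (a • u) ((-b) • w) = 0 := by rw [← hcu, ← e3]; exact hw'
  have hw3 : polar Q u ((a * (-b)) • w) = 0 := by rw [polar_smul_r hQ, hw, mul_zero]
  have e2 : sg hQ ((c : Matrix ι ι F) *ᵥ u) ((c : Matrix ι ι F) *ᵥ (-w)) hu' hw' = sg hQ u ((a * (-b)) • w) hu hw3 := by
    rw [sg_congr hQ hu' hw' hu2 hw2 hcu e3, sg_smul hQ hu hw]
  have hw4 : polar Q u (w + (a * (-b)) • w) = 0 := by rw [polar_add_r hQ, hw, hw3, add_zero]
  have e4 : sg hQ u w hu hw * c * (sg hQ u w hu hw)⁻¹ * c⁻¹ = sg hQ u w hu hw * (c * (sg hQ u w hu hw)⁻¹ * c⁻¹) := by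
    group
  rw [e4, e1, e2, sg_mul hQ hu hw hw3 hw4]
  refine sg_congr hQ _ _ _ _ rfl ?_
  module

end Cfsg.Agent.H682.EP
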