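import Cfsg.Agent.H911.AdForm
import Cfsg.Agent.H682.EP.Sg

/-!
# The adjoint representation of `GL(3, F)` (helper682, S3499)
-/

set_option autoImplicit false
set_option linter.unusedSectionVars false
set_option linter.unusedVariables false

namespace Cfsg.Agent.H682.EP

open Matrix Cfsg.Agent.H911.Ad
open scoped MatrixGroups

variable {F : Type*} [Field F]

/-- conjugation on `sl_3` -/
def cjS (g : GL (Fin 3) F) : Mo.S F →ₗ[F] Mo.S F where
  toFun X := ⟨g.1 * X.1 * g⁻¹.1, by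
    rw [Mo.mem_S, Matrix.trace_mul_comm, ← Matrix.mul_assoc, Units.inv_mul, Matrix.one_mul]; exact X.2⟩
  map_add' X Y := by
    apply Subtype.ext
    change g.1 * (X.1 + Y.1) * g⁻¹.1 = g.1 * X.1 * g⁻¹.1 + g.1 * Y.1 * g⁻¹.1
    rw [Matrix.mul_add, Matrix.add_mul]
  map_smul' a X := by
    apply Subtype.ext
    change g.1 * (a • X.1) * g⁻¹.1 = a • (g.1 * X.1 * g⁻¹.1)
    rw [Matrix.mul_smul, Matrix.smul_mul]

theorem cjS_val (g : GL (Fin 3) F) (X : Mo.S F) : (cjS g X).1 = g.1 * X.1 * g⁻¹.1 := rfl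

theorem cjS_Z (g : GL (Fin 3) F) : Mo.Z F ≤ (Mo.Z F).comap (cjS g) := by
  intro X hX
  rw [Submodule.mem_comap, Mo.mem_Z]
  obtain ⟨a, ha⟩ := Mo.mem_Z.1 hX
  refine ⟨a, ?_⟩
  rw [cjS_val, ← ha, Matrix.mul_smul, Matrix.smul_mul, Matrix.mul_one, Units.mul_inv]

/-- the adjoint representation of `GL(3, F)` -/
def cj3 : GL (Fin 3) F →* Module.End F (Mo.M F) where
  toFun g := (Mo.Z F).mapQ (Mo.Z F) (cjS g) (cjS_Z g)
  map_one' := by
    refine LinearMap.ext fun v => ?_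
    obtain ⟨X, rfl⟩ := Mo.mk_surj v
    change Mo.mk (cjS 1 X) = Mo.mk X
    congr 1
    apply Subtype.ext
    rw [cjS_val, inv_one, Units.val_one, Matrix.one_mul, Matrix.mul_one]
  map_mul' g g' := by
    refine LinearMap.ext fun v => ?_
    obtain ⟨X, rfl⟩ := Mo.mk_surj v
    change Mo.mk (cjS (g * g') X) = Mo.mk (cjS g (cjS g' X))
    congr 1
    apply Subtype.ext
    rw [cjS_val, cjS_val, cjS_val, _root_.mul_inv_rev, Units.val_mul, Units.val_mul]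
    simp only [Matrix.mul_assoc]

theorem cj3_mk (g : GL (Fin 3) F) (X : Mo.S F) : cj3 g (Mo.mk X) = Mo.mk (cjS g X) := rfl

/-- transposition on `sl_3` -/
def trS : Mo.S F →ₗ[F] Mo.S F where
  toFun X := ⟨X.1ᵀ, by rw [Mo.mem_S, Matrix.trace_transpose]; exact X.2⟩
  map_add' X Y := rfl
  map_smul' a X := rfl

theorem trS_val (X : Mo.S F) : (trS X).1 = X.1ᵀ := rfl

theorem trS_Z : Mo.Z F ≤ (Mo.Z F).comap trS := by
  intro X hX
  rw [Submodule.mem_comap, Mo.mem_Z]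
  obtain ⟨a, ha⟩ := Mo.mem_Z.1 hX
  refine ⟨a, ?_⟩
  rw [trS_val, ← ha, Matrix.transpose_smul, Matrix.transpose_one]

/-- transposition on the adjoint module -/
def tr3 : Mo.M F →ₗ[F] Mo.M F := (Mo.Z F).mapQ (Mo.Z F) trS trS_Z

theorem tr3_mk (X : Mo.S F) : tr3 (Mo.mk X) = Mo.mk (trS X) := rfl

theorem tr3_tr3 (v : Mo.M F) : tr3 (tr3 v) = v := by
  obtain ⟨X, rfl⟩ := Mo.mk_surj v
  rw [tr3_mk, tr3_mk]
  congr 1

/-! ### matrices -/

variable {ι : Type} [Fintype ι] [DecidableEq ι] (θ : (ι → F) ≃ₗ[F] Mo.M F)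

/-- the representation by matrices -/
noncomputable def cgm : GL (Fin 3) F →* Matrix ι ι F where
  toFun g := LinearMap.toMatrix' (θ.symm.toLinearMap ∘ₗ cj3 g ∘ₗ θ.toLinearMap)
  map_one' := by
    rw [map_one]
    have : (θ.symm.toLinearMap ∘ₗ (1 : Module.End F (Mo.M F)) ∘ₗ θ.toLinearMap) = LinearMap.id := by
      refine LinearMap.ext fun v => ?_
      exact θ.symm_apply_apply v
    rw [this, LinearMap.toMatrix'_id]
  map_mul' g g' := by
    rw [map_mul, ← LinearMap.toMatrix'_comp]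
    congr 1
    refine LinearMap.ext fun v => ?_
    change θ.symm (cj3 g (cj3 g' (θ v))) = θ.symm (cj3 g (θ (θ.symm (cj3 g' (θ v)))))
    rw [θ.apply_symm_apply]

/-- the representation of `GL(3, F)` -/
noncomputable def cg : GL (Fin 3) F →* GL ι F := (cgm θ).toHomUnits

/-- the vector of a matrix -/
noncomputable def ev : Mo.S F →ₗ[F] (ι → F) := θ.symm.toLinearMap ∘ₗ Mo.mk

theorem ev_apply (X : Mo.S F) : ev θ X = θ.symm (Mo.mk X) := rfl

theorem ev_surj (v : ι → F) : ∃ X, ev θ X = v := by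
  obtain ⟨X, hX⟩ := Mo.mk_surj (θ v)
  exact ⟨X, by rw [ev_apply, hX, θ.symm_apply_apply]⟩

theorem theta_ev (X : Mo.S F) : θ (ev θ X) = Mo.mk X := θ.apply_symm_apply _

theorem ev_eq_zero {X : Mo.S F} : ev θ X = 0 ↔ ∃ a : F, a • (1 : Matrix (Fin 3) (Fin 3) F) = X.1 := by
  rw [ev_apply, θ.symm.map_eq_zero_iff, Mo.mk_eq_zero]

theorem cg_ev (g : GL (Fin 3) F) (X : Mo.S F) : (cg θ g : Matrix ι ι F) *ᵥ ev θ X = ev θ (cjS g X) := by
  change (LinearMap.toMatrix' (θ.symm.toLinearMap ∘ₗ cj3 g ∘ₗ θ.toLinearMap)) *ᵥ ev θ X = _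
  rw [← Matrix.toLin'_apply, Matrix.toLin'_toMatrix']
  change θ.symm (cj3 g (θ (ev θ X))) = _
  rw [theta_ev, cj3_mk]
  rfl

/-- transposition -/
noncomputable def rT : GL ι F :=
  ⟨LinearMap.toMatrix' (θ.symm.toLinearMap ∘ₗ tr3 ∘ₗ θ.toLinearMap),
    LinearMap.toMatrix' (θ.symm.toLinearMap ∘ₗ tr3 ∘ₗ θ.toLinearMap), by
      rw [← LinearMap.toMatrix'_comp]
      have : (θ.symm.toLinearMap ∘ₗ tr3 ∘ₗ θ.toLinearMap) ∘ₗ (θ.symm.toLinearMap ∘ₗ tr3 ∘ₗ θ.toLinearMap) =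
          LinearMap.id := by
        refine LinearMap.ext fun v => ?_
        change θ.symm (tr3 (θ (θ.symm (tr3 (θ v))))) = v
        rw [θ.apply_symm_apply, tr3_tr3, θ.symm_apply_apply]
      rw [this, LinearMap.toMatrix'_id], by
      rw [← LinearMap.toMatrix'_comp]
      have : (θ.symm.toLinearMap ∘ₗ tr3 ∘ₗ θ.toLinearMap) ∘ₗ (θ.symm.toLinearMap ∘ₗ tr3 ∘ₗ θ.toLinearMap) =
          LinearMap.id := by
        refine LinearMap.ext fun v => ?_
        change θ.symm (tr3 (θ (θ.symm (tr3 (θ v))))) = v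
        rw [θ.apply_symm_apply, tr3_tr3, θ.symm_apply_apply]
      rw [this, LinearMap.toMatrix'_id]⟩

theorem rT_ev (X : Mo.S F) : (rT θ : Matrix ι ι F) *ᵥ ev θ X = ev θ (trS X) := by
  change (LinearMap.toMatrix' (θ.symm.toLinearMap ∘ₗ tr3 ∘ₗ θ.toLinearMap)) *ᵥ ev θ X = _
  rw [← Matrix.toLin'_apply, Matrix.toLin'_toMatrix']
  change θ.symm (tr3 (θ (ev θ X))) = _
  rw [theta_ev, tr3_mk]
  rfl

theorem rT_inv : (rT θ)⁻¹ = rT θ := by
  rw [inv_eq_iff_mul_eq_one]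
  apply gl_ext
  intro v
  obtain ⟨X, rfl⟩ := ev_surj θ v
  rw [Units.val_mul, ← Matrix.mulVec_mulVec, rT_ev, rT_ev, Units.val_one, Matrix.one_mulVec]
  rfl

/-- the commutator of a symmetric matrix with transposition is its square -/
theorem comm_rT {g : GL (Fin 3) F} (hg : g.1ᵀ = g.1) : cg θ g * rT θ * (cg θ g)⁻¹ * (rT θ)⁻¹ = cg θ (g * g) := by
  have hgi : g⁻¹.1ᵀ = g⁻¹.1 := by
    rw [Matrix.coe_units_inv, Matrix.transpose_nonsing_inv, hg]
  rw [rT_inv, ← map_inv]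
  apply gl_ext
  intro v
  obtain ⟨X, rfl⟩ := ev_surj θ v
  rw [Units.val_mul, Units.val_mul, Units.val_mul, ← Matrix.mulVec_mulVec, ← Matrix.mulVec_mulVec,
    ← Matrix.mulVec_mulVec, rT_ev, cg_ev, rT_ev, cg_ev, cg_ev]
  congr 1
  apply Subtype.ext
  rw [cjS_val, trS_val, cjS_val, trS_val, cjS_val, inv_inv, Matrix.transpose_mul, Matrix.transpose_mul,
    Matrix.transpose_transpose, hg, hgi, _root_.mul_inv_rev, Units.val_mul, Units.val_mul]
  simp only [Matrix.mul_assoc]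

/-! ### forms -/

theorem e2_cj (g : GL (Fin 3) F) (X : Mo.S F) : Mo.e2 (cjS g X).1 = Mo.e2 X.1 := by
  unfold Mo.e2
  rw [cjS_val, Matrix.adjugate_mul_distrib, Matrix.adjugate_mul_distrib, ← Matrix.mul_assoc, Matrix.trace_mul_comm,
    ← Matrix.mul_assoc, ← Matrix.adjugate_mul_distrib, Units.inv_mul, Matrix.adjugate_one, Matrix.one_mul]

theorem e2_tr (X : Mo.S F) : Mo.e2 (trS X).1 = Mo.e2 X.1 := by
  unfold Mo.e2
  rw [trS_val, ← Matrix.adjugate_transpose, Matrix.trace_transpose]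

section form

variable {Qf : (ι → F) → F} {a : F} (hQf : ∀ v, Qf v = a * qf θ v)
include hQf

theorem Q_ev (X : Mo.S F) : Qf (ev θ X) = a * Mo.e2 X.1 := by
  rw [hQf]
  unfold qf
  rw [theta_ev, Mo.qM_mk]

theorem polar_ev (X Y : Mo.S F) : QuadraticMap.polar Qf (ev θ X) (ev θ Y) = -a * (X.1 * Y.1).trace := by
  have h1 := polar_qf θ (ev θ X) (ev θ Y) (theta_ev θ X).symm (theta_ev θ Y).symm
  unfold QuadraticMap.polar at h1 ⊢
  rw [hQf, hQf, hQf]
  linear_combination a * h1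

theorem cg_iso (g : GL (Fin 3) F) (v : ι → F) : Qf ((cg θ g : Matrix ι ι F) *ᵥ v) = Qf v := by
  obtain ⟨X, rfl⟩ := ev_surj θ v
  rw [cg_ev, Q_ev θ hQf, Q_ev θ hQf, e2_cj]

theorem rT_iso (v : ι → F) : Qf ((rT θ : Matrix ι ι F) *ᵥ v) = Qf v := by
  obtain ⟨X, rfl⟩ := ev_surj θ v
  rw [rT_ev, Q_ev θ hQf, Q_ev θ hQf, e2_tr]

/-- the squares of symmetric matrices act in `Ω` -/
theorem cg_sq_mem {g : GL (Fin 3) F} (hg : g.1ᵀ = g.1) : cg θ (g * g) ∈ Cfsg.Geo.omegaGL Qf := by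
  rw [Cfsg.Agent.H887.OmegaBridge.omegaGL_eq, ← comm_rT θ hg]
  exact Subgroup.commutator_mem_commutator (Cfsg.Agent.H887.OmegaBridge.mem_isometryGroup.2 (cg_iso θ hQf g))
    (Cfsg.Agent.H887.OmegaBridge.mem_isometryGroup.2 (rT_iso θ hQf))

end form

/-! ### `SL(3, F)` -/

/-- the representation of `SL(3, F)` -/
noncomputable def sl : SpecialLinearGroup (Fin 3) F →* GL ι F := (cg θ).comp SpecialLinearGroup.toGL

theorem sl_apply (g : SpecialLinearGroup (Fin 3) F) : sl θ g = cg θ (SpecialLinearGroup.toGL g) := rfl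

/-- the model over `F` -/
theorem range_sl {E : Type*} [Field E] {σ : E →+* F} (hσ : Function.Bijective σ)
    {φ : SpecialLinearGroup (Fin 3) E →* GL ι F} (hθ : ∀ g v, θ ((φ g : Matrix ι ι F) *ᵥ v) = Mo.ad σ g (θ v)) :
    (sl θ).range = φ.range := by
  have h1 : ∀ g, φ g = sl θ (SpecialLinearGroup.map σ g) := by
    intro g
    apply gl_ext
    intro v
    obtain ⟨X, rfl⟩ := ev_surj θ v
    apply θ.injective
    rw [hθ, sl_apply, cg_ev, theta_ev, theta_ev, Mo.ad_mk]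
    congr 1
    apply Subtype.ext
    rw [Mo.adS_val, cjS_val, ← map_inv, ← map_inv]
    rfl
  apply le_antisymm
  · rintro _ ⟨g, rfl⟩
    refine ⟨SpecialLinearGroup.map ((RingEquiv.ofBijective σ hσ).symm : F →+* E) g, ?_⟩
    rw [h1]
    congr 1
    apply Subtype.ext
    ext i j
    exact (RingEquiv.ofBijective σ hσ).apply_symm_apply _
  · rintro _ ⟨g, rfl⟩
    exact ⟨_, (h1 g).symm⟩

end Cfsg.Agent.H682.EP
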