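import Cfsg.Agent.H682.EP.AdMain
import Cfsg.Agent.H879.Nine.Ctx

/-!
# S3499, own characteristic: socle `PSL(3, E)` in dimension 8, `p ≠ 3` (helper682)
-/

set_option autoImplicit false

namespace Cfsg.Agent.H682.EP

open Matrix Cfsg.Agent.H911.Ad Cfsg.Agent.H284 Cfsg.Agent.H419.EP Cfsg.Agent.H915.LD
open scoped MatrixGroups

/-- **The adjoint module of `PSL(3, E)`, `p ≠ 3`, `|E| > 3`: no EP pair.** -/
theorem adj_psl3 {Q : Type*} [Group Q] [Finite Q] (hs : IsSimpleGroup Q) {A : Subgroup Q} {Γ : Subgroup (MulAut Q)}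
    (h : EPT A Γ) {F : Type*} [Field F] [Finite F] {ι : Type} [Fintype ι] [DecidableEq ι] {Qf : (ι → F) → F}
    (m : Model Q (Cfsg.Geo.omegaGL Qf)) (hn : 7 ≤ Fintype.card ι) (hn' : Fintype.card ι ≤ 11)
    (hQ : Cfsg.Geo.IsNondegenerateQuadraticForm Qf) {P : Subgroup (GL ι F)} (hP : Cfsg.Geo.IsResidualCore (m.hat A) P)
    (p : ℕ) [hp : Fact p.Prime] [CharP F p] (hp3 : p ≠ 3) {E : Type*} [Field E] [Finite E] [CharP E p]
    (hE : 3 < Nat.card E) (Φ : Soc P ≃* ProjectiveSpecialLinearGroup (Fin 3) E) : False := by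
  have hC := core_of_residual hP
  have hfix : Cfsg.Geo.FixesQuadForm (Cfsg.Geo.matrixSet P) Qf := by
    rintro s ⟨g, hg, rfl⟩ v
    have h1 : g ∈ Cfsg.Geo.omegaGL Qf := m.hat_le A (hP.le hg)
    rw [Cfsg.Agent.H887.OmegaBridge.omegaGL_eq] at h1
    exact Cfsg.Agent.H887.OmegaBridge.mem_isometryGroup.1 (Subgroup.commutator_le_self _ h1) v
  have hsd : SD P := Cfsg.Agent.H879.Nine.sd_of_fixQ ⟨Qf, hQ, hfix⟩
  obtain ⟨σ, φ, θ, hσ, hφ, hθ⟩ := psl3_model p hC hsd Φ hn'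
  obtain ⟨a, ha, haQ⟩ := quad_unique hC (qf_nondeg θ) (qf_fix θ hφ hθ) hQ hfix
  have h3 : (3 : F) ≠ 0 := by
    intro h0
    have h1 : ((3 : ℕ) : F) = 0 := by exact_mod_cast h0
    rw [CharP.cast_eq_zero_iff F p 3, Nat.prime_dvd_prime_iff_eq hp.out (by norm_num)] at h1
    exact hp3 h1
  refine adj_sl hQ haQ hs h m hn (p := p) hp3 ha h3 ((range_sl θ hσ hθ).trans hφ) hP ?_
  rw [← Nat.card_congr (Equiv.ofBijective σ hσ)]
  exact hE

end Cfsg.Agent.H682.EP
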