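import Cfsg.Agent.H682.EP.Engine

/-!
# S3499: the criterion for a residual core `P = φ(G)` (helper682)

* `cl_gl` : `U` a Sylow `p`-subgroup of `G`, `φ : G → GL` with range the core `P` of `m.hat A`, the kernel modulo scalars
  central of exponent 3 (`p ≠ 3`).
-/

set_option autoImplicit false
set_option linter.unusedSectionVars false

namespace Cfsg.Agent.H682.EP

open Subgroup Cfsg.Agent.H284 Cfsg.Agent.H419.EP
open scoped MatrixGroups

variable {Q : Type*} [Group Q] [Finite Q] {A : Subgroup Q} {Γ : Subgroup (MulAut Q)}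
variable {ι : Type} [Fintype ι] [DecidableEq ι] {F : Type*} [Field F] {S P : Subgroup (GL ι F)} (m : Model Q S)

section

variable {G : Type*} [Group G] {φ : G →* GL ι F}

/-- the map to `Q` -/
def psi (hφS : ∀ g, φ g ∈ S) : G →* Q := m.π.comp (φ.codRestrict S hφS)

theorem psi_apply (hφS : ∀ g, φ g ∈ S) (g : G) : psi m hφS g = m.π ⟨φ g, hφS g⟩ := rfl

/-- the cores in `G` and in `Q` -/
theorem map_core [Finite G] {p : ℕ} (hp3 : p ≠ 3) (hp : p.Prime) {ψ : G →* Q} {U : Subgroup G} (hUp : IsPGroup p U)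
    (hz : ∀ z, ψ z = 1 → (∀ g, g * z = z * g) ∧ z ^ 3 = 1) {D : Subgroup Q} (hUD : U.map ψ ≤ D) (hD : D ≤ ψ.range) :
    coreIn D (U.map ψ) = (coreIn (D.comap ψ) U).map ψ := by
  have key : ∀ {u u' z : G}, u ∈ U → u' ∈ U → ψ z = 1 → ∀ g, g⁻¹ * u * g = u' * z → z = 1 := by
    intro u u' z hu hu' hz1 g e
    obtain ⟨h1, h2⟩ := hz z hz1
    have := Fact.mk hp
    obtain ⟨k, hk⟩ := IsPGroup.iff_card.1 hUp
    have e1 : u ^ p ^ k = 1 := by
      rw [← hk]
      exact congrArg Subtype.val (pow_card_eq_one' (x := (⟨u, hu⟩ : U)))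
    have e2 : u' ^ p ^ k = 1 := by
      rw [← hk]
      exact congrArg Subtype.val (pow_card_eq_one' (x := (⟨u', hu'⟩ : U)))
    have e3 : (g⁻¹ * u * g) ^ p ^ k = 1 := by
      have : g⁻¹ * u * g = g⁻¹ * u * g⁻¹⁻¹ := by rw [inv_inv]
      rw [this, conj_pow, e1, mul_one, mul_inv_cancel]
    have hc : Commute u' z := h1 u'
    rw [e, hc.mul_pow, e2, one_mul] at e3
    have h4 := Nat.dvd_gcd (orderOf_dvd_of_pow_eq_one e3) (orderOf_dvd_of_pow_eq_one h2)
    have h5 : Nat.gcd (p ^ k) 3 = 1 := by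
      apply Nat.Coprime.pow_left
      exact (Nat.coprime_primes hp Nat.prime_three).2 hp3
    rw [h5, Nat.dvd_one, orderOf_eq_one_iff] at h4
    exact h4
  apply le_antisymm
  · intro x hx
    obtain ⟨u, hu, rfl⟩ := coreIn_le _ _ hx
    refine ⟨u, fun g hg => ?_, rfl⟩
    obtain ⟨u', hu', e⟩ := hx _ (show ψ g ∈ D from hg)
    rw [← map_inv, ← map_mul, ← map_mul] at e
    have h1 : ψ (u'⁻¹ * (g⁻¹ * u * g)) = 1 := by rw [map_mul, map_inv, ← e, inv_mul_cancel]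
    have h2 := key hu hu' h1 g (by group)
    rw [inv_mul_eq_one] at h2
    rw [← h2]
    exact hu'
  · rintro _ ⟨k, hk, rfl⟩ d hd
    obtain ⟨g, rfl⟩ := hD hd
    refine ⟨g⁻¹ * k * g, hk g hd, ?_⟩
    rw [map_mul, map_mul, map_inv]

/-- **The criterion for a residual core.** -/
theorem cl_gl [Finite G] (h : EPT A Γ) (hP : Cfsg.Geo.IsResidualCore (m.hat A) P) (hφ : φ.range = P) {p : ℕ}
    (hp : p.Prime) (hp3 : p ≠ 3) {U : Subgroup G} (hUp : IsPGroup p U) (hi : ¬ p ∣ U.index)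
    (hz : ∀ z, φ z ∈ Cfsg.Geo.scalars ι F → (∀ g, g * z = z * g) ∧ z ^ 3 = 1) {C : Set (GL ι F)}
    (hC : ∀ c ∈ C, c ∈ m.hat A)
    (hcore : ∀ D : Subgroup G, U ≤ D → D ≠ ⊤ → coreIn D U ≠ ⊥ ∧
      ∀ c ∈ C, ∀ k ∈ coreIn D U, ∃ k' ∈ coreIn D U, c * φ k * c⁻¹ = φ k')
    {t : GL ι F} (htS : t ∈ S) (ht : ∀ u ∈ U, ∃ u' ∈ U, t * φ u * t⁻¹ = φ u') {c : GL ι F} (hc : c ∈ C) :
    t * c * t⁻¹ ∈ m.hat A := by
  have hPS : P ≤ S := hP.le.trans (m.hat_le A)
  have hφP : ∀ g, φ g ∈ P := fun g => by rw [← hφ]; exact ⟨g, rfl⟩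
  have hφS : ∀ g, φ g ∈ S := fun g => hPS (hφP g)
  set ψ := psi m hφS with hψ
  set N := ψ.range with hN
  have hz' : ∀ z, ψ z = 1 → (∀ g, g * z = z * g) ∧ z ^ 3 = 1 := fun z e => hz z ((m.ker ⟨φ z, hφS z⟩).1 e)
  have h1 : N ≤ A := by
    rintro _ ⟨g, rfl⟩
    exact (m.mem_hat_iff ⟨φ g, hφS g⟩).1 (hP.le (hφP g))
  have h2 : ∀ a ∈ A, ∀ n ∈ N, a * n * a⁻¹ ∈ N := by
    rintro a ha _ ⟨g, rfl⟩
    obtain ⟨s, rfl⟩ := m.surj a
    have hs : (s : GL ι F) ∈ m.hat A := (m.mem_hat_iff s).2 ha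
    have h3 := hP.normal _ hs _ (hφP g)
    rw [← hφ] at h3
    obtain ⟨g', hg'⟩ := h3
    refine ⟨g', ?_⟩
    rw [hψ, psi_apply, psi_apply, ← map_inv, ← map_mul, ← map_mul]
    congr 1
    exact Subtype.ext hg'
  have h3 : ∀ a ∈ A, (∀ n ∈ N, a * n = n * a) → a = 1 := by
    intro a ha hc
    obtain ⟨s, rfl⟩ := m.surj a
    have hs : (s : GL ι F) ∈ m.hat A := (m.mem_hat_iff s).2 ha
    rw [m.ker]
    apply hP.centralizer_scalar _ hs
    intro x hx
    rw [← hφ] at hx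
    obtain ⟨g, rfl⟩ := hx
    have h4 := hc (ψ g) ⟨g, rfl⟩
    have h5 : m.π (s * ⟨φ g, hφS g⟩ * s⁻¹ * ⟨φ g, hφS g⟩⁻¹) = 1 := by
      rw [map_mul, map_mul, map_mul, map_inv, map_inv]
      rw [hψ, psi_apply] at h4
      rw [h4]
      group
    exact (m.ker _).1 h5
  have hs : IsSimpleGroup N := by
    have hsP := hP.simple
    let f : P →* Q := m.π.comp (Subgroup.inclusion hPS)
    have hker : f.ker = (Cfsg.Geo.scalars ι F).subgroupOf P := by
      ext x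
      rw [MonoidHom.mem_ker]
      exact m.ker _
    have hr : f.range = N := by
      ext y
      constructor
      · rintro ⟨x, rfl⟩
        have hx : (x : GL ι F) ∈ φ.range := by rw [hφ]; exact x.2
        obtain ⟨g, hg⟩ := hx
        refine ⟨g, ?_⟩
        rw [hψ, psi_apply]
        exact congrArg m.π (Subtype.ext hg)
      · rintro ⟨g, rfl⟩
        exact ⟨⟨φ g, hφP g⟩, rfl⟩
    rw [← hr]
    exact ((QuotientGroup.quotientMulEquivOfEq hker).symm.trans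
      (QuotientGroup.quotientKerEquivRange f)).symm.isSimpleGroup
  have hU : U.map ψ ≤ N := Subgroup.map_le_range _ _
  have hi' : ¬ p ∣ (U.map ψ).relIndex N := by
    intro h4
    apply hi
    refine h4.trans ?_
    have h5 : (U.map ψ).relIndex N = (U.map ψ.rangeRestrict).index := by
      rw [Subgroup.relIndex]
      congr 1
      ext x
      constructor
      · rintro ⟨u, hu, e⟩
        exact ⟨u, hu, Subtype.ext e⟩
      · rintro ⟨u, hu, rfl⟩
        exact ⟨u, hu, rfl⟩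
    rw [h5]
    exact Subgroup.index_map_dvd U ψ.rangeRestrict_surjective
  have hCS : ∀ c ∈ C, c ∈ S := fun c hc => m.hat_le A (hC c hc)
  have hfin := cl_sylow h h1 h2 h3 hs hp hU (hUp.map ψ) hi' (C := {x | ∃ c, ∃ hc : c ∈ C, x = m.π ⟨c, hCS c hc⟩}) ?_ ?_
    (t := m.π ⟨t, htS⟩) ?_ (c := m.π ⟨c, hCS c hc⟩) ⟨c, hc, rfl⟩
  · rw [← map_inv, ← map_mul, ← map_mul] at hfin
    exact (m.mem_hat_iff _).2 hfin
  · rintro _ ⟨c, hc, rfl⟩
    exact (m.mem_hat_iff _).1 (hC c hc)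
  · intro D hUD hDN hne
    have hcomap : D.comap ψ ≠ ⊤ := by
      intro e
      apply hne
      apply le_antisymm hDN
      rintro _ ⟨g, rfl⟩
      have : g ∈ D.comap ψ := by rw [e]; trivial
      exact this
    obtain ⟨h4, h5⟩ := hcore (D.comap ψ) (Subgroup.map_le_iff_le_comap.1 hUD) hcomap
    rw [map_core hp3 hp hUp hz' hUD hDN]
    constructor
    · intro e
      apply h4
      rw [Subgroup.eq_bot_iff_forall]
      intro k hk
      have h6 : ψ k = 1 := by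
        have : ψ k ∈ (coreIn (D.comap ψ) U).map ψ := ⟨k, hk, rfl⟩
        rw [e, mem_bot] at this
        exact this
      obtain ⟨-, h7⟩ := hz' k h6
      have := Fact.mk hp
      obtain ⟨j, hj⟩ := IsPGroup.iff_card.1 hUp
      have h8 : k ^ p ^ j = 1 := by
        rw [← hj]
        exact congrArg Subtype.val (pow_card_eq_one' (x := (⟨k, coreIn_le _ _ hk⟩ : U)))
      have h9 := Nat.dvd_gcd (orderOf_dvd_of_pow_eq_one h8) (orderOf_dvd_of_pow_eq_one h7)
      have h10 : Nat.gcd (p ^ j) 3 = 1 := by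
        apply Nat.Coprime.pow_left
        exact (Nat.coprime_primes hp Nat.prime_three).2 hp3
      rw [h10, Nat.dvd_one, orderOf_eq_one_iff] at h9
      exact h9
    · rintro _ ⟨c, hc, rfl⟩ _ ⟨k, hk, rfl⟩
      obtain ⟨k', hk', e⟩ := h5 c hc k hk
      refine ⟨k', hk', ?_⟩
      rw [hψ, psi_apply, psi_apply, ← map_inv, ← map_mul, ← map_mul]
      congr 1
      exact Subtype.ext e.symm
  · rintro _ ⟨u, hu, rfl⟩
    obtain ⟨u', hu', e⟩ := ht u hu
    refine ⟨u', hu', ?_⟩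
    rw [hψ, psi_apply, psi_apply, ← map_inv, ← map_mul, ← map_mul]
    congr 1
    exact Subtype.ext e.symm

end

/-- **An element of `S` normalising the core lies in `m.hat A`.** -/
theorem mem_hat_of_norm (hs : IsSimpleGroup Q) (h : EPT A Γ) (hP : Cfsg.Geo.IsResidualCore (m.hat A) P) {c : GL ι F}
    (hcS : c ∈ S) (hn : ∀ x ∈ P, c * x * c⁻¹ ∈ P) : c ∈ m.hat A := by
  have hPS : P ≤ S := hP.le.trans (m.hat_le A)
  set N := (P.subgroupOf S).map m.π with hN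
  have h1 : N ≤ A := by
    rintro _ ⟨x, hx, rfl⟩
    exact (m.mem_hat_iff x).1 (hP.le hx)
  have key : ∀ s : S, (∀ x ∈ P, (s : GL ι F) * x * (s : GL ι F)⁻¹ ∈ P) → m.π s ∈ Subgroup.normalizer (N : Set Q) := by
    intro s hs
    refine Subgroup.mem_normalizer_fintype ?_
    rintro _ ⟨x, hx, rfl⟩
    exact ⟨s * x * s⁻¹, hs _ hx, by rw [map_mul, map_mul, map_inv]⟩
  have h2 : A ≤ Subgroup.normalizer (N : Set Q) := by
    intro a ha
    obtain ⟨s, rfl⟩ := m.surj a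
    exact key s fun x hx => hP.normal _ ((m.mem_hat_iff s).2 ha) x hx
  have h3 : m.π ⟨c, hcS⟩ ∈ Subgroup.normalizer (N : Set Q) := key ⟨c, hcS⟩ hn
  by_contra hc
  have hcA : m.π ⟨c, hcS⟩ ∉ A := fun e => hc ((m.mem_hat_iff ⟨c, hcS⟩).2 e)
  have h4 : Subgroup.normalizer (N : Set Q) = ⊤ := by
    apply h.max.2
    refine lt_of_le_of_ne h2 fun e => hcA ?_
    rw [e]
    exact h3
  have h5 : N.Normal := Subgroup.normalizer_eq_top_iff.1 h4
  rcases h5.eq_bot_or_eq_top with h6 | h6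
  · have hns := hP.simple.toNontrivial
    obtain ⟨x, hx⟩ := exists_ne (1 : P ⧸ (Cfsg.Geo.scalars ι F).subgroupOf P)
    apply hx
    obtain ⟨x, rfl⟩ := QuotientGroup.mk_surjective x
    rw [QuotientGroup.eq_one_iff]
    have h7 : m.π ⟨(x : GL ι F), hPS x.2⟩ ∈ N := ⟨⟨(x : GL ι F), hPS x.2⟩, x.2, rfl⟩
    rw [h6, mem_bot] at h7
    exact (m.ker _).1 h7
  · apply h.max.1
    rw [eq_top_iff, ← h6]
    exact h1

end Cfsg.Agent.H682.EP
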