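import Cfsg.Agent.H682.EP.SLThree
import Cfsg.Agent.H682.EP.AdRep
import Cfsg.Agent.H682.EP.GLForm
import Cfsg.Agent.H960.Card81

/-!
# S3499, own characteristic: the adjoint module of `SL(3, F)` (helper682)
-/

set_option autoImplicit false
set_option linter.unusedSectionVars false
set_option linter.unusedVariables false

namespace Cfsg.Agent.H682.EP

open Matrix Subgroup Cfsg.Agent.H911.Ad Cfsg.Agent.H284 Cfsg.Agent.H419.EP
open scoped MatrixGroups

variable {F : Type*} [Field F]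

/-! ### the group `U` -/

theorem mkU_inj {a b c a' b' c' : F} (h : mkU a b c = mkU a' b' c') : a = a' ∧ b = b' ∧ c = c' := by
  have h01 := congrArg (fun g : SpecialLinearGroup (Fin 3) F => g.1 0 1) h
  have h02 := congrArg (fun g : SpecialLinearGroup (Fin 3) F => g.1 0 2) h
  have h12 := congrArg (fun g : SpecialLinearGroup (Fin 3) F => g.1 1 2) h
  simp only [mkU_val] at h01 h02 h12
  simp at h01 h02 h12
  exact ⟨h01, h02, h12⟩

theorem card_Uh [Finite F] : Nat.card (Uh F) = Nat.card F ^ 3 := by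
  have h1 : Nat.card (F × F × F) = Nat.card F ^ 3 := by
    rw [Nat.card_prod, Nat.card_prod]; ring
  rw [← h1]
  refine (Nat.card_congr (Equiv.ofBijective (fun x : F × F × F => (⟨mkU x.1 x.2.1 x.2.2, mkU_mem _ _ _⟩ : Uh F))
    ⟨?_, ?_⟩)).symm
  · rintro ⟨a, b, c⟩ ⟨a', b', c'⟩ h
    obtain ⟨h1, h2, h3⟩ := mkU_inj (congrArg Subtype.val h)
    simp only at h1 h2 h3
    rw [h1, h2, h3]
  · rintro ⟨_, a, b, c, rfl⟩
    exact ⟨(a, b, c), rfl⟩

theorem Uh_pgroup [Finite F] {p : ℕ} [Fact p.Prime] [CharP F p] : IsPGroup p (Uh F) := by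
  have := Fintype.ofFinite F
  obtain ⟨n, -, hn⟩ := FiniteField.card F p
  refine IsPGroup.of_card (n := n * 3) ?_
  rw [card_Uh, Nat.card_eq_fintype_card, hn, pow_mul]

theorem Uh_index [Finite F] {p : ℕ} [Fact p.Prime] [CharP F p] : ¬ p ∣ (Uh F).index := by
  have hF := Fintype.ofFinite F
  obtain ⟨n, hpr, hn⟩ := FiniteField.card F p
  set q := Fintype.card F with hq
  have hq2 : 2 ≤ q := by
    have := Fintype.one_lt_card (α := F)
    omega
  have h1 := Subgroup.card_mul_index (Uh F)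
  have h2 := Cfsg.Agent.H960.card_SL3 (F := F) (p := q) rfl hq2
  rw [Cfsg.Agent.H960.card_sl_eq] at h2
  rw [card_Uh, h2, Nat.card_eq_fintype_card, ← hq, mul_assoc] at h1
  have h3 : (Uh F).index = (q ^ 2 - 1) * (q ^ 3 - 1) := Nat.eq_of_mul_eq_mul_left (by positivity) h1
  have hpq : p ∣ q := by
    rw [hn]
    exact dvd_pow_self p n.ne_zero
  rw [h3]
  intro h4
  have key : ∀ k, k ≠ 0 → ¬ p ∣ q ^ k - 1 := by
    intro k hk h5
    have h6 : p ∣ q ^ k := dvd_pow hpq hk
    have h7 : 1 ≤ q ^ k := Nat.one_le_pow _ _ (by omega)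
    have h8 := (Nat.dvd_sub h6 h5)
    rw [Nat.sub_sub_self h7] at h8
    exact hpr.one_lt.ne' (Nat.dvd_one.1 h8)
  rcases (Nat.Prime.dvd_mul hpr).1 h4 with h5 | h5
  · exact key 2 (by norm_num) h5
  · exact key 3 (by norm_num) h5

/-! ### elements acting as scalars -/

theorem e_val {i j : Fin 3} (hij : i ≠ j) : (Mo.e F hij).1 = Matrix.single i j 1 := rfl

/-- conjugation of `E_ij` -/
theorem comm_e {g : GL (Fin 3) F} (h3 : (3 : F) ≠ 0) {l : F} {i j : Fin 3} (hij : i ≠ j)
    (h : Mo.mk (cjS g (Mo.e F hij)) = l • Mo.mk (Mo.e F hij)) :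
    (∀ k, k ≠ i → g.1 k i = 0) ∧ (∀ k, k ≠ j → g.1 j k = 0) ∧ g.1 i i = l * g.1 j j := by
  rw [← map_smul, ← sub_eq_zero, ← map_sub, Mo.mk_eq_zero] at h
  obtain ⟨a, ha⟩ := h
  have h1 : a • (1 : Matrix (Fin 3) (Fin 3) F) = g.1 * Matrix.single i j 1 * g⁻¹.1 - l • Matrix.single i j 1 := ha
  have h2 := congrArg Matrix.trace h1
  rw [Matrix.trace_smul, Matrix.trace_one, Matrix.trace_sub, Matrix.trace_smul, Matrix.trace_mul_comm,
    ← Matrix.mul_assoc, Units.inv_mul, Matrix.one_mul, Matrix.trace_single_eq_of_ne _ _ _ hij, smul_zero, sub_zero,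
    Fintype.card_fin, smul_eq_mul] at h2
  have ha0 : a = 0 := (mul_eq_zero.1 h2).resolve_right (by exact_mod_cast h3)
  rw [ha0, zero_smul] at h1
  have h4 : g.1 * Matrix.single i j 1 = l • (Matrix.single i j 1 * g.1) := by
    have h5 : g.1 * Matrix.single i j 1 * g⁻¹.1 = l • Matrix.single i j 1 := (sub_eq_zero.1 h1.symm)
    calc g.1 * Matrix.single i j 1 = g.1 * Matrix.single i j 1 * g⁻¹.1 * g.1 := by
          rw [Matrix.mul_assoc (g.1 * Matrix.single i j 1), Units.inv_mul, Matrix.mul_one]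
      _ = l • (Matrix.single i j 1 * g.1) := by rw [h5, Matrix.smul_mul]
  have key : ∀ a b : Fin 3, (g.1 * Matrix.single i j 1 : Matrix (Fin 3) (Fin 3) F) a b =
      l * (Matrix.single i j 1 * g.1 : Matrix (Fin 3) (Fin 3) F) a b := by
    intro a b
    rw [h4]
    rfl
  refine ⟨fun k hk => ?_, fun k hk => ?_, ?_⟩
  · have h5 := key k j
    rw [Matrix.mul_single_apply_same, Matrix.single_mul_apply_of_ne _ _ _ _ _ hk, mul_zero, mul_one] at h5
    exact h5
  · have h5 := key i k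
    rw [Matrix.mul_single_apply_of_ne _ _ _ _ _ hk, Matrix.single_mul_apply_same, one_mul] at h5
    by_contra h6
    have hl : l = 0 := (mul_eq_zero.1 h5.symm).resolve_right h6
    have h7 := congrArg (fun X => g⁻¹.1 * X) h4
    simp only [← Matrix.mul_assoc] at h7
    rw [Units.inv_mul, Matrix.one_mul, hl, zero_smul, Matrix.mul_zero] at h7
    have h8 := congrFun (congrFun h7 i) j
    rw [Matrix.single_apply_same] at h8
    exact one_ne_zero h8
  · have h5 := key i j
    rw [Matrix.mul_single_apply_same, Matrix.single_mul_apply_same, one_mul, mul_one] at h5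
    exact h5

end Cfsg.Agent.H682.EP
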