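import Cfsg.Agent.H419.EP.Soc

/-!
# S3499, own characteristic: the criterion CL for a Sylow `p`-subgroup of the socle (helper682)

`N` is the socle of `A`, `U ≤ N` a Sylow `p`-subgroup of `N`, `C ⊆ A`.  If `C` normalises the core of `U` in every
proper overgroup `D` of `U` in `N` (the intersection of the `D`-conjugates of `U`, i.e. `O_p(D)`) and the core is not
trivial, then every `A ∩ A^x` containing `U` contains `C` (`mem_cj_of_core`), and `t c t⁻¹ ∈ A` for `t ∈ N_Q(U)`,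
`c ∈ C` (`cl_sylow`).
-/

set_option autoImplicit false

namespace Cfsg.Agent.H682.EP

open Subgroup Cfsg.Agent.H284 Cfsg.Agent.H419.EP

variable {Q : Type*} [Group Q]

/-- the intersection of the `D`-conjugates of `U` -/
def coreIn (D U : Subgroup Q) : Subgroup Q where
  carrier := {k | ∀ d ∈ D, d⁻¹ * k * d ∈ U}
  one_mem' := fun d _ => by
    rw [mul_one, inv_mul_cancel]
    exact U.one_mem
  mul_mem' := fun {a b} ha hb d hd => by
    have e : d⁻¹ * (a * b) * d = (d⁻¹ * a * d) * (d⁻¹ * b * d) := by group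
    rw [e]
    exact U.mul_mem (ha d hd) (hb d hd)
  inv_mem' := fun {a} ha d hd => by
    have e : d⁻¹ * a⁻¹ * d = (d⁻¹ * a * d)⁻¹ := by group
    rw [e]
    exact U.inv_mem (ha d hd)

theorem mem_coreIn {D U : Subgroup Q} {k : Q} : k ∈ coreIn D U ↔ ∀ d ∈ D, d⁻¹ * k * d ∈ U := Iff.rfl

theorem coreIn_le (D U : Subgroup Q) : coreIn D U ≤ U := fun k hk => by
  have := hk 1 D.one_mem
  rwa [inv_one, one_mul, mul_one] at this

theorem coreIn_eq {D U : Subgroup Q} (h : ∀ d ∈ D, ∀ u ∈ U, d * u * d⁻¹ ∈ U) : coreIn D U = U := by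
  refine le_antisymm (coreIn_le D U) fun u hu d hd => ?_
  have := h d⁻¹ (D.inv_mem hd) u hu
  rwa [inv_inv] at this

theorem coreIn_conj {D U : Subgroup Q} {k d : Q} (hk : k ∈ coreIn D U) (hd : d ∈ D) : d⁻¹ * k * d ∈ coreIn D U := by
  intro e he
  have := hk (d * e) (D.mul_mem hd he)
  have e1 : (d * e)⁻¹ * k * (d * e) = e⁻¹ * (d⁻¹ * k * d) * e := by group
  rwa [e1] at this

variable [Finite Q]

/-- Sylow's theorem in `D` -/
theorem exists_conj {D U S : Subgroup Q} {p : ℕ} (hp : p.Prime) (hU : U ≤ D) (hUp : IsPGroup p U)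
    (hi : ¬ p ∣ U.relIndex D) (hS : S ≤ D) (hc : Nat.card S = Nat.card U) : ∃ g ∈ D, ∀ y, y ∈ S ↔ g⁻¹ * y * g ∈ U := by
  have := Fact.mk hp
  have hUp' : IsPGroup p (U.subgroupOf D) := hUp.comap_of_injective D.subtype D.subtype_injective
  have hcU : Nat.card (U.subgroupOf D) = Nat.card U := Nat.card_congr (Subgroup.subgroupOfEquivOfLe hU).toEquiv
  have hcS : Nat.card (S.subgroupOf D) = Nat.card U := (Nat.card_congr (Subgroup.subgroupOfEquivOfLe hS).toEquiv).trans hc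
  have hSp' : IsPGroup p (S.subgroupOf D) := by
    obtain ⟨k, hk⟩ := IsPGroup.iff_card.1 hUp'
    exact IsPGroup.of_card (hcS.trans (hcU.symm.trans hk))
  have hiS : ¬ p ∣ (S.subgroupOf D).index := by
    intro h
    apply hi
    have h1 := Subgroup.card_mul_index (S.subgroupOf D)
    have h2 := Subgroup.card_mul_index (U.subgroupOf D)
    rw [hcS, ← hcU] at h1
    have h3 : (S.subgroupOf D).index = (U.subgroupOf D).index :=
      Nat.eq_of_mul_eq_mul_left Nat.card_pos (h1.trans h2.symm)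
    rw [h3] at h
    exact h
  let PU : Sylow p D := hUp'.toSylow hi
  let PS : Sylow p D := hSp'.toSylow hiS
  obtain ⟨g, hg⟩ := MulAction.exists_smul_eq D PU PS
  refine ⟨g, g.2, fun y => ?_⟩
  have key : ∀ y : D, y ∈ S.subgroupOf D ↔ g⁻¹ * y * g ∈ U.subgroupOf D := by
    intro y
    have h1 : ((g • PU : Sylow p D) : Subgroup D) = (PS : Subgroup D) := by rw [hg]
    have h2 : y ∈ (PS : Subgroup D) ↔ y ∈ ((g • PU : Sylow p D) : Subgroup D) := by rw [h1]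
    have h3 : y ∈ (PS : Subgroup D) ↔ y ∈ S.subgroupOf D := Iff.rfl
    rw [← h3, h2, Sylow.coe_subgroup_smul, Subgroup.mem_pointwise_smul_iff_inv_smul_mem]
    have h4 : (MulAut.conj g)⁻¹ • y = g⁻¹ * y * g := by
      rw [← map_inv, MulAut.smul_def, MulAut.conj_apply, inv_inv]
    have h5 : (MulAut.conj g)⁻¹ • y ∈ (PU : Subgroup D) ↔ (MulAut.conj g)⁻¹ • y ∈ U.subgroupOf D := Iff.rfl
    rw [h5, h4]
  constructor
  · intro hy
    exact (key ⟨y, hS hy⟩).1 hy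
  · intro hy
    have hyD : y ∈ D := by
      have h1 : y = (g : Q) * ((g : Q)⁻¹ * y * g) * (g : Q)⁻¹ := by group
      rw [h1]
      exact D.mul_mem (D.mul_mem g.2 (hU hy)) (D.inv_mem g.2)
    exact (key ⟨y, hyD⟩).2 hy

/-- the core of a Sylow subgroup of `D` is invariant -/
theorem coreIn_inv {D U : Subgroup Q} {p : ℕ} (hp : p.Prime) (hU : U ≤ D) (hUp : IsPGroup p U)
    (hi : ¬ p ∣ U.relIndex D) {σ : MulAut Q} (hσ : ∀ y ∈ D, σ y ∈ D) {k : Q} (hk : k ∈ coreIn D U) :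
    σ k ∈ coreIn D U := by
  have hmap : D.map σ.toMonoidHom = D := by
    refine Subgroup.eq_of_le_of_card_ge ?_ ?_
    · rintro _ ⟨y, hy, rfl⟩
      exact hσ y hy
    · rw [Nat.card_congr (D.equivMapOfInjective σ.toMonoidHom σ.injective).toEquiv.symm]
  have hinv : ∀ y ∈ D, σ.symm y ∈ D := by
    intro y hy
    rw [← hmap] at hy
    obtain ⟨z, hz, rfl⟩ := hy
    have : σ.symm (σ.toMonoidHom z) = z := σ.symm_apply_apply z
    rw [this]
    exact hz
  set S := U.comap σ.toMonoidHom with hS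
  have hSD : S ≤ D := by
    intro y hy
    have h1 := hinv _ (hU (show σ y ∈ U from hy))
    rwa [σ.symm_apply_apply] at h1
  have hc : Nat.card S = Nat.card U := by
    have h1 : S.map σ.toMonoidHom = U := Subgroup.map_comap_eq_self_of_surjective σ.surjective U
    conv_rhs => rw [← h1]
    exact Nat.card_congr (S.equivMapOfInjective σ.toMonoidHom σ.injective).toEquiv
  obtain ⟨g, hg, hgS⟩ := exists_conj hp hU hUp hi hSD hc
  intro d hd
  have h1 := coreIn_conj hk (hinv d hd)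
  have h2 := (hgS _).2 (h1 g hg)
  have h3 : σ ((σ.symm d)⁻¹ * k * σ.symm d) ∈ U := h2
  rwa [map_mul, map_mul, map_inv, σ.apply_symm_apply] at h3

variable {A : Subgroup Q} {Γ : Subgroup (MulAut Q)}

omit [Finite Q] in
/-- the socle is invariant under `Γ` -/
theorem inv_soc (h : EPT A Γ) {N : Subgroup Q} (h1 : N ≤ A) (h2 : ∀ a ∈ A, ∀ n ∈ N, a * n * a⁻¹ ∈ N)
    (h3 : ∀ a ∈ A, (∀ n ∈ N, a * n = n * a) → a = 1) (hs : IsSimpleGroup N) {σ : MulAut Q} (hσ : σ ∈ Γ) :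
    ∀ n ∈ N, σ n ∈ N := by
  set N' := N.comap σ.toMonoidHom with hN'
  have hn : ((N' ⊓ N).subgroupOf N).Normal := ⟨by
    rintro ⟨n, hn'⟩ hn ⟨a, ha⟩
    refine ⟨?_, N.mul_mem (N.mul_mem ha hn') (N.inv_mem ha)⟩
    show σ (a * n * a⁻¹) ∈ N
    rw [map_mul, map_mul, map_inv]
    exact h2 _ ((h.inv σ hσ a).2 (h1 ha)) _ hn.1⟩
  rcases hn.eq_bot_or_eq_top with h4 | h4
  · exfalso
    -- `N'` centralises `N`
    have h5 : ∀ k ∈ N', k = 1 := by
      intro k hk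
      have hkA : k ∈ A := (h.inv σ hσ k).1 (h1 (show σ k ∈ N from hk))
      apply h3 k hkA
      intro n hn'
      have h5 : k * n * k⁻¹ * n⁻¹ ∈ N' ⊓ N := by
        refine ⟨?_, N.mul_mem (h2 k hkA n hn') (N.inv_mem hn')⟩
        show σ (k * n * k⁻¹ * n⁻¹) ∈ N
        have e : k * n * k⁻¹ * n⁻¹ = k * (n * k⁻¹ * n⁻¹) := by group
        rw [e, map_mul, map_mul, map_mul, map_inv, map_inv]
        exact N.mul_mem hk (h2 _ ((h.inv σ hσ n).2 (h1 hn')) _ (N.inv_mem hk))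
      have h6 : (⟨k * n * k⁻¹ * n⁻¹, h5.2⟩ : N) ∈ (N' ⊓ N).subgroupOf N := h5
      rw [h4, mem_bot] at h6
      have h7 : k * n * k⁻¹ * n⁻¹ = 1 := congrArg Subtype.val h6
      rw [mul_inv_eq_one, mul_inv_eq_iff_eq_mul] at h7
      exact h7
    have hnt : Nontrivial N := hs.toNontrivial
    obtain ⟨n, hn1⟩ := exists_ne (1 : N)
    apply hn1
    apply Subtype.ext
    have h6 : σ.symm (n : Q) ∈ N' := by
      show σ (σ.symm (n : Q)) ∈ N
      rw [σ.apply_symm_apply]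
      exact n.2
    have h7 := congrArg σ (h5 _ h6)
    rw [σ.apply_symm_apply, map_one] at h7
    exact h7
  · intro n hn'
    have h6 : (⟨n, hn'⟩ : N) ∈ (N' ⊓ N).subgroupOf N := by rw [h4]; exact mem_top _
    exact (mem_inf.1 h6).1

/-- **Every `A ∩ A^x` containing `U` contains `C`.** -/
theorem mem_cj_of_core (h : EPT A Γ) {N : Subgroup Q} (h1 : N ≤ A) (h2 : ∀ a ∈ A, ∀ n ∈ N, a * n * a⁻¹ ∈ N)
    (h3 : ∀ a ∈ A, (∀ n ∈ N, a * n = n * a) → a = 1) (hs : IsSimpleGroup N) {p : ℕ} (hp : p.Prime)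
    {U : Subgroup Q} (hU : U ≤ N) (hUp : IsPGroup p U) (hi : ¬ p ∣ U.relIndex N) {C : Set Q} (hCA : ∀ c ∈ C, c ∈ A)
    (hcore : ∀ D : Subgroup Q, U ≤ D → D ≤ N → D ≠ N → coreIn D U ≠ ⊥ ∧
      ∀ c ∈ C, ∀ k ∈ coreIn D U, c * k * c⁻¹ ∈ coreIn D U)
    {x : Q} (hx : x ∉ A) (hUx : U ≤ cj x A) {c : Q} (hc : c ∈ C) : c ∈ cj x A := by
  set D := A ⊓ cj x A ⊓ N with hD
  have hDN : D ≤ N := inf_le_right
  have hUD : U ≤ D := le_inf (le_inf (hU.trans h1) hUx) hU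
  have hne : D ≠ N := by
    intro e
    have h4 : N ≤ cj x A := by
      rw [← e]
      exact inf_le_left.trans inf_le_right
    have h5 := h.F1 x hx N h1 (fun σ hσ => inv_soc h h1 h2 h3 hs hσ) h4
    have hnt : Nontrivial N := hs.toNontrivial
    exact (Subgroup.nontrivial_iff_ne_bot N).1 hnt h5
  obtain ⟨h4, h5⟩ := hcore D hUD hDN hne
  have hKM : coreIn D U ≤ A ⊓ cj x A := (coreIn_le D U).trans (hUD.trans inf_le_left)
  have hiD : ¬ p ∣ U.relIndex D := fun h6 => hi (h6.trans (by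
    rw [← Subgroup.relIndex_mul_relIndex U D N hUD hDN]
    exact Dvd.intro _ rfl))
  rw [← h.conj_stab (hCA c hc)]
  refine h.norm x hx (coreIn D U) hKM (fun σ hσ hσx k hk => ?_) h4 _ ((h.conj c).2 (hCA c hc)) (h5 c hc)
  refine coreIn_inv hp hUD hUp hiD (fun y hy => ?_) hk
  exact ⟨h.stab_M0 hσ hσx hy.1, inv_soc h h1 h2 h3 hs hσ y hy.2⟩

/-- **The criterion.** -/
theorem cl_sylow (h : EPT A Γ) {N : Subgroup Q} (h1 : N ≤ A) (h2 : ∀ a ∈ A, ∀ n ∈ N, a * n * a⁻¹ ∈ N)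
    (h3 : ∀ a ∈ A, (∀ n ∈ N, a * n = n * a) → a = 1) (hs : IsSimpleGroup N) {p : ℕ} (hp : p.Prime)
    {U : Subgroup Q} (hU : U ≤ N) (hUp : IsPGroup p U) (hi : ¬ p ∣ U.relIndex N) {C : Set Q} (hCA : ∀ c ∈ C, c ∈ A)
    (hcore : ∀ D : Subgroup Q, U ≤ D → D ≤ N → D ≠ N → coreIn D U ≠ ⊥ ∧
      ∀ c ∈ C, ∀ k ∈ coreIn D U, c * k * c⁻¹ ∈ coreIn D U)
    {t : Q} (ht : ∀ y ∈ U, t * y * t⁻¹ ∈ U) {c : Q} (hc : c ∈ C) : t * c * t⁻¹ ∈ A :=
  h.CL hCA (hU.trans h1) (fun _ hx hUx _ hc => mem_cj_of_core h h1 h2 h3 hs hp hU hUp hi hCA hcore hx hUx hc) ht hc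

end Cfsg.Agent.H682.EP
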