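import Cfsg.Agent.H682.EP.L2Model
import Cfsg.Agent.H875.TwoPlus
import Cfsg.Agent.H929.UThreePlus
import Cfsg.Agent.H887.OmegaBridge

/-!
# S3499, own characteristic: socle `PSL(2, q³)` in dimension 8, `q` even (helper682)
-/

set_option autoImplicit false

namespace Cfsg.Agent.H682.EP

open Matrix Cfsg Cfsg.Geo QuadraticMap Cfsg.Agent.H284 Cfsg.Agent.H419.EP Cfsg.Agent.H915.LD Cfsg.Agent.H911.SLTwo
  Cfsg.Agent.H875.Fn Cfsg.Agent.H875.Psl2 Cfsg.Agent.H875.TwoQuad Cfsg.Agent.H875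
open scoped MatrixGroups

/-- **The module of `PSL(2, q³)`, `q` even: no EP pair.** -/
theorem l2_cube {Q : Type*} [Group Q] [Finite Q] {A : Subgroup Q} {Γ : Subgroup (MulAut Q)}
    (h : EPT A Γ) {F : Type} [Field F] [Fintype F] {ι : Type} [Fintype ι] [DecidableEq ι] {Qf : (ι → F) → F}
    (m : Model Q (Cfsg.Geo.omegaGL Qf)) (hn : Fintype.card ι = 8) (hQ : IsNondegenerateQuadraticForm Qf)
    {P : Subgroup (GL ι F)} (hP : IsResidualCore (m.hat A) P) [CharP F 2] {E : Type} [Field E] [Fintype E]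
    (hK : Fintype.card E = Fintype.card F ^ 3) (e : Soc P ≃* ProjectiveSpecialLinearGroup (Fin 2) E) : False := by
  classical
  have h2p := Fact.mk Nat.prime_two
  have hC := core_of_residual hP
  obtain ⟨a, -, ha⟩ := FiniteField.card F 2
  have hE2 : CharP E 2 := by
    obtain ⟨p, hp⟩ := CharP.exists E
    obtain ⟨b, hpr, hb⟩ := FiniteField.card E p
    have h1 : 2 ∣ p ^ (b : ℕ) := by
      rw [← hb, hK, ha]
      exact dvd_pow (dvd_pow_self 2 a.ne_zero) (by norm_num)
    have h2 := (Nat.prime_dvd_prime_iff_eq Nat.prime_two hpr).1 (Nat.prime_two.dvd_of_dvd_pow h1)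
    rw [h2]
    exact hp
  have hfix : FixesQuadForm (matrixSet P) Qf := by
    rintro s ⟨g, hg, rfl⟩ v
    have h1 : g ∈ Cfsg.Geo.omegaGL Qf := m.hat_le A (hP.le hg)
    rw [Cfsg.Agent.H887.OmegaBridge.omegaGL_eq] at h1
    exact Cfsg.Agent.H887.OmegaBridge.mem_isometryGroup.1 (Subgroup.commutator_le_self _ h1) v
  obtain ⟨θ, hsurj, -⟩ := DefCov.exists_cover (m := 1) hC 2 (perf hC e) e
  obtain ⟨j₀⟩ := exists_emb F E 2
  have hk : CharP (AlgebraicClosure F) 2 := charP_of_injective_ringHom (algebraMap F (AlgebraicClosure F)).injective 2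
  obtain ⟨s, r₀, Φ, hs0, hs, hr0, hlt, hcard, hM⟩ := exists_param 2 θ hC hsurj (algebraMap F (AlgebraicClosure F)) j₀
  have hq2 : 2 ≤ Fintype.card F := Fintype.one_lt_card
  have hs3 : s = 3 := by
    rw [hK] at hs
    exact (Nat.pow_right_injective hq2 hs).symm
  subst hs3
  have hSS : (SS 2 r₀).card = 2 := by
    rw [hn] at hcard
    have h1 : (2 : ℕ) ^ 3 = (SS 2 r₀).card ^ 3 := by
      rw [← hcard]
      norm_num
    exact (Nat.pow_left_injective (n := 3) (by norm_num) h1).symm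
  obtain ⟨b, hb⟩ := eq_pow_of_card_two 2 hSS
  set q := Fintype.card F with hq
  have hCub : L2.Cub E q := L2.cub_of ha hK
  set j : E →+* AlgebraicClosure F := (iterateFrobenius (AlgebraicClosure F) 2 b).comp j₀ with hj
  have hw : ∀ x : E, j₀ x ^ (r₀ * ∑ l ∈ Finset.range 3, q ^ l) = j (L2.nm q x) := by
    intro x
    have h1 : L2.nm q x = x ^ (∑ l ∈ Finset.range 3, q ^ l) := by
      unfold L2.nm
      rw [Finset.sum_range_succ, Finset.sum_range_succ, Finset.sum_range_one, pow_zero, pow_one, pow_add, pow_add, pow_one,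
        ← pow_mul, pow_two]
      ring
    rw [h1, hj, RingHom.comp_apply, iterateFrobenius_def, map_pow, ← pow_mul, hb]
    congr 1
    ring
  set ρ := P.subtype.comp θ with hρ
  have hlin : ∀ (g : SpecialLinearGroup (Fin 2) E) (w : ι → F), lin ρ (RingHom.id F) g w = (ρ g : Matrix ι ι F) *ᵥ w := by
    intro g w
    rw [lin_apply']
    congr 1
  have : Nonempty ι := hC.nonempty
  obtain ⟨v₀, hv0, hvU⟩ := exists_fixed (lin ρ (RingHom.id F)) 2
  obtain ⟨v, -, -, -, hvh, hvu⟩ := hM.exists_hw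
  have hbU : ∀ t, lin ρ (algebraMap F (AlgebraicClosure F)) (U t) (bc (algebraMap F (AlgebraicClosure F)) v₀) =
      bc (algebraMap F (AlgebraicClosure F)) v₀ := by
    intro t
    rw [lin_bc, ← hlin, hvU]
  obtain ⟨c, hc⟩ := hvu _ hbU
  have h8 := hM.finrank 2
  rw [Module.finrank_fintype_fun_eq_card, hn] at h8
  obtain ⟨V, c', D⟩ := L2.dat_of (q := q) hCub (rep := ρ) hv0 (fun t => by rw [← hlin, hvU])
    (i := algebraMap F (AlgebraicClosure F)) (j := j)
    (fun x hx => Cfsg.Agent.H929.U3.exists_alg _ hx) (fun t a ha => by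
      have h1 : bc (algebraMap F (AlgebraicClosure F)) ((ρ (hh t) : Matrix ι ι F) *ᵥ v₀) =
          bc (algebraMap F (AlgebraicClosure F)) (a • v₀) := by
        rw [← lin_bc, bc_smul, hc, map_smul, hvh, hw, ha, smul_comm]
      funext x
      exact (algebraMap F (AlgebraicClosure F)).injective (congrFun h1 x)) hQ (by
      refine TwoPlus.quad_unique hC hsurj hM (by rw [← h8]; decide) hQ hfix ?_
      have h2 := (TwoPlus.mem_iff hM).1 (TwoPlus.bc_mem (k := AlgebraicClosure F) (v := v₀) (by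
        rw [TwoPlus.mem_W₂]
        intro s t
        rw [hvU, sub_self, map_zero]))
      unfold qq
      exact TwoPlus.QL_eq_zero j₀ hM.le h8.symm h2)
    (fun g x => hfix _ ⟨ρ g, (θ g).2, rfl⟩ x) (by
      rw [hρ, range_cov θ hsurj]
      exact hC.absIrred.1)
  exact L2.adj_l2 D h m (by omega) hK hq2 (range_cov θ hsurj) hP

end Cfsg.Agent.H682.EP
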