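import Cfsg.Agent.H682.EP.L2Main

/-!
# S3499, own characteristic: `PSL(2, q³)` in `Ω₈⁺(q)`, `q` even, the contradiction (helper682)
-/

set_option autoImplicit false
set_option linter.unusedSectionVars false
set_option linter.unusedVariables false

namespace Cfsg.Agent.H682.EP.L2

open Matrix QuadraticMap Subgroup Cfsg.Agent.H911.SLTwo Cfsg.Agent.H875.Fn Cfsg.Agent.H284 Cfsg.Agent.H419.EP
  Cfsg.Agent.H682.EP
open scoped MatrixGroups

variable {F : Type*} [Field F] {ι : Type} [Fintype ι] [DecidableEq ι] {E : Type*} [Field E] {q : ℕ}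
  {K : Type*} [Field K]

namespace Dat

variable {rep : SpecialLinearGroup (Fin 2) E →* GL ι F} {Q : (ι → F) → F} {V : E × E → ι → F} {c : F} {i : F →+* K}
  {j : E →+* K} (D : Dat q rep Q V c i j)
include D

theorem z_V : i (polar Q (V (1, 0)) (V (0, 1))) = i c := by
  rw [D.gram]
  have : dt ((1 : E), (0 : E)) (0, 1) = 1 := by
    unfold dt
    simp
  rw [this, D.C.nm_one, map_one, mul_one]

theorem z_V_ne : polar Q (V (1, 0)) (V (0, 1)) ≠ 0 := by
  intro h
  have h1 := D.z_V
  rw [h, map_zero] at h1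
  exact D.hc ((map_eq_zero i).1 h1.symm)

/-- the Siegel element is not in `rep U` -/
theorem T_not_U [Fintype E] (hE : Fintype.card E = q ^ 3) (hq : 2 ≤ q) {x : ι → F} {κ : E} (hκ : κ ≠ 0)
    (hx : Rp Q V c i j x (fun w => tv q κ w + 0 * nm q w.2)) {t : E} (h : rep (U t) = D.T hx) : False := by
  have h1 : (rep (U t) : Matrix ι ι F) *ᵥ V (0, 1) = (D.T hx : Matrix ι ι F) *ᵥ V (0, 1) := by rw [h]
  unfold T at h1
  rw [D.actV, sg_apply, mv_U] at h1
  simp only [mul_one, zero_add] at h1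
  set b := polar Q (V (1, 0)) (V (0, 1)) with hb
  set d := polar Q x (V (0, 1)) + Q x * b with hd
  have h2 : V (t, 1) = V (0, 1) + b • x - d • V (1, 0) := by
    rw [h1, hd]
    module
  -- the values
  have h3 : ∀ y : E, j (nm q (t + y)) = j (nm q y) + i b * j (tc q (κ * y)) - i d := by
    intro y
    have h4 : i (polar Q (V (t, 1)) (V (y, 1))) = i (polar Q (V (0, 1) + b • x - d • V (1, 0)) (V (y, 1))) := by rw [h2]
    have h5 : polar Q (V (0, 1) + b • x - d • V (1, 0)) (V (y, 1)) = polar Q (V (0, 1)) (V (y, 1)) +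
        b * polar Q x (V (y, 1)) - d * polar Q (V (1, 0)) (V (y, 1)) := by
      have e1 : V (0, 1) + b • x - d • V (1, 0) = V (0, 1) + b • x + (-d) • V (1, 0) := by module
      rw [e1, polar_add_l D.hQ, polar_add_l D.hQ, polar_smul_l D.hQ, polar_smul_l D.hQ]
      ring
    have hic : i c ≠ 0 := (map_ne_zero i).2 D.hc
    have g1 : i (polar Q (V (t, 1)) (V (y, 1))) = i c * j (nm q (t + y)) := by
      rw [D.gram, D.dt_one, mul_one]
    have g2 : i (polar Q (V (0, 1)) (V (y, 1))) = i c * j (nm q y) := by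
      rw [D.gram, D.dt_one, zero_mul, zero_add]
    have g3 : i (polar Q x (V (y, 1))) = i c * j (tc q (κ * y)) := by
      have e3 : tv q κ (y, (1 : E)) = tc q (κ * y) := by
        unfold tv
        simp
      rw [hx (y, 1)]
      change i c * j (tv q κ (y, 1) + 0 * nm q 1) = _
      rw [zero_mul, add_zero, e3]
    have g4 : i (polar Q (V (1, 0)) (V (y, 1))) = i c := by
      have e2 : dt ((1 : E), (0 : E)) (y, 1) = 1 := by
        unfold dt
        simp
      rw [D.gram, e2, D.C.nm_one, map_one, mul_one]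
    rw [g1, h5, map_sub, map_add, map_mul, map_mul, g2, g3, g4] at h4
    apply mul_left_cancel₀ hic
    linear_combination h4
  have ht : t = 0 := by
    refine eq_zero_of_add D.C hE hq fun y y' => ?_
    apply j.injective
    simp only [map_sub, map_add, map_zero]
    have k0 := h3 0
    have k1 := h3 y
    have k2 := h3 y'
    have k3 := h3 (y + y')
    have k4 : j (tc q (κ * (y + y'))) = j (tc q (κ * y)) + j (tc q (κ * y')) := by
      rw [mul_add, D.C.tc_add, map_add]
    rw [k4] at k3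
    rw [add_zero, mul_zero, D.C.tc_zero, D.C.nm_zero, map_zero, mul_zero] at k0
    linear_combination k3 - k1 - k2 + k0
  subst ht
  have k0 := h3 0
  rw [add_zero, mul_zero, D.C.tc_zero, map_zero, mul_zero] at k0
  have hd0 : i d = 0 := by linear_combination k0
  apply hκ
  refine tc_nondeg D.C hE hq fun y => ?_
  have k1 := h3 y
  rw [zero_add, hd0, sub_zero] at k1
  have hib : i b ≠ 0 := (map_ne_zero i).2 D.z_V_ne
  have k2 : i b * j (tc q (κ * y)) = 0 := by linear_combination -k1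
  have k3 := (mul_eq_zero.1 k2).resolve_left hib
  rw [map_eq_zero] at k3
  rw [mul_comm]
  exact k3

/-- the kernel modulo scalars -/
theorem ker_triv {g : SpecialLinearGroup (Fin 2) E} (hg : rep g ∈ Cfsg.Geo.scalars ι F) : g = 1 := by
  obtain ⟨l, hl⟩ := (Cfsg.Geo.mem_scalars_iff _).1 hg
  have hic : i c ≠ 0 := (map_ne_zero i).2 D.hc
  have key : ∀ w, dt (mv g w) w = 0 := by
    intro w
    have h2 := D.actV g w
    rw [hl, Matrix.smul_mulVec, Matrix.one_mulVec] at h2
    have h3 := D.gram (mv g w) w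
    have h4 := D.gram w w
    have h5 : dt w w = 0 := by
      unfold dt
      ring
    rw [h5, D.C.nm_zero, map_zero, mul_zero] at h4
    rw [← h2, polar_smul_l D.hQ, map_mul, h4, mul_zero] at h3
    have h6 := (mul_eq_zero.1 h3.symm).resolve_left hic
    rw [map_eq_zero] at h6
    exact D.C.nm_eq_zero h6
  have k1 := key (1, 0)
  have k2 := key (0, 1)
  have k3 := key (1, 1)
  unfold dt mv at k1 k2 k3
  simp at k1 k2 k3
  rw [k1, k2] at k3
  have hdet := det_eq g
  rw [k1, k2] at hdet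
  have k4 : g.1 0 0 = g.1 1 1 := by linear_combination k3
  have k5 : (g.1 0 0 - 1) * (g.1 0 0 - 1) = 0 := by
    rw [← k4] at hdet
    linear_combination hdet + (1 - g.1 0 0) * D.C.two
  have k6 : g.1 0 0 = 1 := by
    have := mul_self_eq_zero.1 k5
    exact sub_eq_zero.1 this
  exact ext' k6 k2 k1 (k4 ▸ k6)

end Dat

/-- **no EP pair** -/
theorem adj_l2 {rep : SpecialLinearGroup (Fin 2) E →* GL ι F} {Q : (ι → F) → F} {V : E × E → ι → F} {c : F} {i : F →+* K}
    {j : E →+* K} (D : Dat q rep Q V c i j) {Qg : Type*} [Group Qg] [Finite Qg] {A : Subgroup Qg}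
    {Γ : Subgroup (MulAut Qg)} [Finite F] [Fintype E] [CharP E 2] (hE : EPT A Γ) (m : Model Qg (Cfsg.Geo.omegaGL Q))
    (hn : 7 ≤ Fintype.card ι) (hcE : Fintype.card E = q ^ 3) (hq : 2 ≤ q) {P : Subgroup (GL ι F)} (hr : rep.range = P)
    (hP : Cfsg.Geo.IsResidualCore (m.hat A) P) : False := by
  have hp := Fact.mk Nat.prime_two
  obtain ⟨s, hs, hs1⟩ := exists_norm_one (q := q) hcE hq
  obtain ⟨y, hy⟩ := exists_not_fix (q := q) hcE hq
  have hrP : ∀ g, rep g ∈ P := fun g => by rw [← hr]; exact ⟨g, rfl⟩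
  have hrA : ∀ g, rep g ∈ m.hat A := fun g => hP.le (hrP g)
  have hz : ∀ z, rep z ∈ Cfsg.Geo.scalars ι F → (∀ g, g * z = z * g) ∧ z ^ 3 = 1 := by
    intro z hz
    rw [D.ker_triv hz]
    exact ⟨fun g => by rw [mul_one, one_mul], one_pow 3⟩
  have hUp := Us_pgroup (E := E) (p := 2)
  have hi := Us_index (E := E) (p := 2)
  have hsU : ∀ k ∈ Us E, hh s * k * (hh s)⁻¹ ∈ Us E := by
    rintro _ ⟨t, rfl⟩
    exact ⟨_, hU s t⟩
  have hx0 := D.rp_v0 y
  have hκ0 : y ^ q + (y ^ q) ^ q ≠ 0 := by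
    intro h
    apply hy
    rw [← D.C.add] at h
    have h1 : y + y ^ q = 0 := by
      by_contra h2
      exact pow_ne_zero q h2 h
    rw [← D.C.sub_eq] at h1
    exact (sub_eq_zero.1 h1).symm
  have hs2 : 1 - ((s⁻¹ : Eˣ) : E) ^ 2 ≠ 0 := by
    intro h
    apply hs1
    have h1 : (1 - ((s⁻¹ : Eˣ) : E)) * (1 - ((s⁻¹ : Eˣ) : E)) = 0 := by
      linear_combination h + (((s⁻¹ : Eˣ) : E) ^ 2 - ((s⁻¹ : Eˣ) : E)) * D.C.two
    have h2 := mul_self_eq_zero.1 h1
    have h3 : s⁻¹ = 1 := Units.ext (by rw [Units.val_one]; exact (sub_eq_zero.1 h2).symm)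
    exact inv_eq_one.1 h3
  -- CL
  have h1 := cl_gl m hE hP hr Nat.prime_two (by norm_num) hUp hi hz (C := {rep (hh s)})
    (fun _ e => by rw [Set.mem_singleton_iff] at e; rw [e]; exact hrA _)
    (fun Dd hD hne => by
      rw [core_L2 hD hne]
      refine ⟨fun h => ?_, fun _ e k hk => ?_⟩
      · have h1 : U (1 : E) ∈ Us E := U_mem 1
        rw [h, mem_bot, ← U_zero] at h1
        exact one_ne_zero (U_inj h1)
      · rw [Set.mem_singleton_iff] at e
        exact ⟨hh s * k * (hh s)⁻¹, hsU k hk, by rw [e, map_mul, map_mul, map_inv]⟩)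
    (t := D.T hx0) (sg_mem D.hQ hn _ _) (fun u hu => ⟨u, hu, by
      obtain ⟨t, rfl⟩ := hu
      have h2 := D.T_comm_U hx0 t
      rw [mul_inv_eq_iff_eq_mul] at h2 ⊢
      exact h2.symm⟩) (Set.mem_singleton (rep (hh s)))
  have h2 := (m.hat A).mul_mem h1 ((m.hat A).inv_mem (hrA (hh s)))
  obtain ⟨x1, hx1, e1⟩ := D.T_comm_tor hs hx0
  rw [e1] at h2
  have h3 := P.mul_mem (hP.normal _ h2 _ (hrP (hh s))) (P.inv_mem (hrP (hh s)))
  obtain ⟨x2, hx2, e2⟩ := D.T_comm_tor hs hx1
  rw [e2] at h3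
  -- `T ∈ rep U`
  have hT2 : D.T hx2 ^ 2 = 1 := by
    rw [pow_two]
    unfold Dat.T
    have hF2 : x2 + x2 = 0 := by
      have h4 : (2 : F) = 0 := by
        apply i.injective
        have h5 := congrArg j D.C.two
        rw [map_ofNat, map_zero] at h5
        rw [map_ofNat, map_zero]
        exact h5
      have h5 : x2 + x2 = (2 : F) • x2 := by rw [two_smul]
      rw [h5, h4, zero_smul]
    have h4 : polar Q (V (1, 0)) (x2 + x2) = 0 := by
      rw [polar_add_r D.hQ, D.z_orth hx2, add_zero]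
    have h5 : polar Q (V (1, 0)) 0 = 0 := by rw [← hF2]; exact h4
    rw [sg_mul D.hQ _ _ _ h4, sg_congr D.hQ _ _ D.sing h5 rfl hF2]
    apply gl_ext
    intro w
    have h6 : ∀ w, polar Q 0 w = 0 := fun w => by
      have := polar_smul_l D.hQ 0 0 w
      rw [zero_smul, zero_mul] at this
      exact this
    have h7 : Q 0 = 0 := by
      have := D.hQ.smul 0 0
      rw [zero_smul] at this
      rw [this]
      ring
    rw [sg_apply, h6, h7, smul_zero, zero_mul, zero_smul, add_zero, sub_zero, sub_zero, Units.val_one, Matrix.one_mulVec]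
  let rp : SpecialLinearGroup (Fin 2) E →* P := rep.codRestrict P hrP
  have hrs : Function.Surjective rp := by
    rintro ⟨x, hx⟩
    rw [← hr] at hx
    obtain ⟨g, rfl⟩ := hx
    exact ⟨g, rfl⟩
  have hPfin : Finite P := Finite.of_surjective rp hrs
  have hx := SUn.mem_of_comm_sylow (G := P) (p := 2) (U := (Us E).map rp) (hUp.map rp)
    (fun h1 => hi (h1.trans (Subgroup.index_map_dvd _ hrs))) (x := ⟨D.T hx2, h3⟩)
    (Subtype.ext hT2) (by
      rintro _ ⟨u, ⟨t, rfl⟩, rfl⟩
      apply Subtype.ext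
      have h2 := D.T_comm_U hx2 t
      rw [mul_inv_eq_iff_eq_mul] at h2
      exact h2.symm)
  obtain ⟨u, ⟨t, rfl⟩, hu1⟩ := hx
  exact D.T_not_U hcE hq (mul_ne_zero (mul_ne_zero hκ0 hs2) hs2) hx2 (congrArg Subtype.val hu1)

end Cfsg.Agent.H682.EP.L2
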