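import Cfsg.Agent.H682.EP.L2Geo

/-!
# Norm and trace for `|E| = q³`, characteristic two (helper682, S3499)
-/

set_option autoImplicit false
set_option linter.unusedSectionVars false
set_option linter.unusedVariables false

namespace Cfsg.Agent.H682.EP.L2

open Matrix

variable {E : Type*} [Field E]

/-- the norm -/
def nm (q : ℕ) (x : E) : E := x * (x ^ q * (x ^ q) ^ q)

/-- the trace -/
def tc (q : ℕ) (x : E) : E := x + (x ^ q + (x ^ q) ^ q)

theorem nm_mul (q : ℕ) (x y : E) : nm q (x * y) = nm q x * nm q y := by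
  unfold nm
  rw [mul_pow, mul_pow]
  ring

/-- the setting -/
structure Cub (E : Type*) [Field E] (q : ℕ) : Prop where
  add : ∀ x y : E, (x + y) ^ q = x ^ q + y ^ q
  cub : ∀ x : E, ((x ^ q) ^ q) ^ q = x
  two : (2 : E) = 0
  q0 : q ≠ 0

variable {q : ℕ} (C : Cub E q)

theorem cub_of [Fintype E] {a : ℕ} [CharP E 2] (hq : q = 2 ^ a) (hE : Fintype.card E = q ^ 3) : Cub E q where
  add x y := by
    have := Fact.mk Nat.prime_two
    rw [hq, add_pow_char_pow]
  cub x := by
    rw [← pow_mul, ← pow_mul]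
    have : q * (q * q) = Fintype.card E := by rw [hE]; ring
    rw [this, FiniteField.pow_card]
  two := by
    have : ((2 : ℕ) : E) = 0 := CharP.cast_eq_zero E 2
    exact_mod_cast this
  q0 := by rw [hq]; positivity

namespace Cub

include C

theorem neg_eq (x : E) : -x = x := by
  linear_combination (-x) * C.two

theorem sub_eq (x y : E) : x - y = x + y := by
  linear_combination (-y) * C.two

theorem zp : (0 : E) ^ q = 0 := zero_pow C.q0

theorem pow_inj {x y : E} (h : x ^ q = y ^ q) : x = y := by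
  rw [← C.cub x, ← C.cub y, h]

theorem nm_zero : nm q (0 : E) = 0 := by
  unfold nm
  rw [zero_mul]

theorem nm_eq_zero {x : E} (h : nm q x = 0) : x = 0 := by
  by_contra hx
  exact mul_ne_zero hx (mul_ne_zero (pow_ne_zero _ hx) (pow_ne_zero _ (pow_ne_zero _ hx))) h

theorem nm_one : nm q (1 : E) = 1 := by
  unfold nm
  simp

theorem nm_pow (x : E) : nm q x ^ q = nm q x := by
  unfold nm
  rw [mul_pow, mul_pow, C.cub]
  ring

theorem tc_pow (x : E) : tc q x ^ q = tc q x := by
  unfold tc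
  rw [C.add, C.add, C.cub]
  ring

theorem tc_add (x y : E) : tc q (x + y) = tc q x + tc q y := by
  unfold tc
  rw [C.add, C.add]
  ring

theorem tc_q (x : E) : tc q (x ^ q) = tc q x := by
  unfold tc
  rw [C.cub]
  ring

theorem tc_fix {a : E} (ha : a ^ q = a) (x : E) : tc q (a * x) = a * tc q x := by
  unfold tc
  rw [mul_pow, mul_pow, ha, ha]
  ring

theorem tc_zero : tc q (0 : E) = 0 := by
  unfold tc
  rw [C.zp, C.zp]
  ring

/-- the expansion of the norm -/
theorem nm_add (A B : E) : nm q (A + B) = nm q A + nm q B + tc q (B * (A ^ q * (A ^ q) ^ q)) +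
    tc q (A * (B ^ q * (B ^ q) ^ q)) := by
  unfold nm tc
  rw [C.add, C.add]
  simp only [mul_pow, C.cub]
  ring

end Cub

section fin

variable [Fintype E] (hE : Fintype.card E = q ^ 3)

include C hE in
/-- nondegeneracy of the trace -/
theorem tc_nondeg (hq : 2 ≤ q) {a : E} (h : ∀ y, tc q (y * a) = 0) : a = 0 := by
  classical
  by_contra ha
  have h1 : ∀ x : E, x + (x ^ q + (x ^ q) ^ q) = 0 := by
    intro x
    have h2 := h (x * a⁻¹)
    rw [mul_assoc, inv_mul_cancel₀ ha, mul_one] at h2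
    exact h2
  have hqq : q < q ^ 2 := by nlinarith
  set P : Polynomial E := Polynomial.X ^ (q ^ 2) + (Polynomial.X ^ q + Polynomial.X) with hP
  have hdeg : P.natDegree ≤ q ^ 2 := by
    rw [hP]
    refine Polynomial.natDegree_add_le_of_degree_le (Polynomial.natDegree_X_pow_le _) ?_
    refine Polynomial.natDegree_add_le_of_degree_le ((Polynomial.natDegree_X_pow_le _).trans hqq.le) ?_
    exact Polynomial.natDegree_X_le.trans (by omega)
  have h0 : P = 0 := by
    refine Polynomial.eq_zero_of_natDegree_lt_card_of_eval_eq_zero P (f := (id : E → E)) Function.injective_id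
      (fun x => ?_) ?_
    · rw [hP]
      simp only [id, Polynomial.eval_add, Polynomial.eval_pow, Polynomial.eval_X]
      have h2 := h1 x
      rw [pow_two, pow_mul]
      linear_combination h2
    · rw [hE]
      exact lt_of_le_of_lt hdeg (Nat.pow_lt_pow_right (by omega) (by norm_num))
  have h2 : P.coeff 1 = 1 := by
    rw [hP, Polynomial.coeff_add, Polynomial.coeff_add, Polynomial.coeff_X_pow, Polynomial.coeff_X_pow,
      Polynomial.coeff_X_one, if_neg (by omega), if_neg (by omega)]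
    ring
  rw [h0, Polynomial.coeff_zero] at h2
  exact zero_ne_one h2

include hE in
theorem exists_gen (hq : 2 ≤ q) : ∃ s : Eˣ, orderOf s = q ^ 3 - 1 := by
  classical
  obtain ⟨t, ht⟩ := IsCyclic.exists_generator (α := Eˣ)
  refine ⟨t, ?_⟩
  rw [orderOf_eq_card_of_forall_mem_zpowers ht, Nat.card_eq_fintype_card, Fintype.card_units, hE]

include hE in
theorem exists_not_fix (hq : 2 ≤ q) : ∃ x : E, x ^ q ≠ x := by
  obtain ⟨s, hs⟩ := exists_gen hE hq
  refine ⟨s, fun h => ?_⟩
  have h1 : s ^ (q - 1) = 1 := by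
    have h2 : s ^ q = s := Units.ext (by rw [Units.val_pow_eq_pow_val]; exact h)
    have h3 : s ^ (q - 1) * s = 1 * s := by rw [← pow_succ, Nat.sub_add_cancel (by omega), h2, one_mul]
    exact mul_right_cancel h3
  have h2 := orderOf_dvd_of_pow_eq_one h1
  rw [hs] at h2
  have h3 := Nat.le_of_dvd (by omega) h2
  have h4 : q < q ^ 3 := by
    calc q = q ^ 1 := (pow_one q).symm
      _ < q ^ 3 := Nat.pow_lt_pow_right (by omega) (by norm_num)
  omega

include hE in
/-- an element of norm one -/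
theorem exists_norm_one (hq : 2 ≤ q) : ∃ s : Eˣ, nm q (s : E) = 1 ∧ s ≠ 1 := by
  obtain ⟨t, ht⟩ := exists_gen hE hq
  refine ⟨t ^ (q - 1), ?_, fun h => ?_⟩
  · have h1 : t ^ (q ^ 3 - 1) = 1 := by rw [← ht]; exact pow_orderOf_eq_one t
    have h2 : (q - 1) * (1 + (q + q * q)) = q ^ 3 - 1 := by
      obtain ⟨m, rfl⟩ : ∃ m, q = m + 1 := ⟨q - 1, by omega⟩
      have h3 : (m + 1) ^ 3 = m * (1 + ((m + 1) + (m + 1) * (m + 1))) + 1 := by ring
      rw [h3]
      simp
    have h3 : nm q (((t ^ (q - 1) : Eˣ) : E)) = ((t ^ (q ^ 3 - 1) : Eˣ) : E) := by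
      rw [← h2]
      unfold nm
      rw [Units.val_pow_eq_pow_val, Units.val_pow_eq_pow_val]
      ring
    rw [h3, h1, Units.val_one]
  · have h2 := orderOf_dvd_of_pow_eq_one h
    rw [ht] at h2
    have h3 := Nat.le_of_dvd (by omega) h2
    have h4 : q < q ^ 3 := by
      calc q = q ^ 1 := (pow_one q).symm
        _ < q ^ 3 := Nat.pow_lt_pow_right (by omega) (by norm_num)
    omega

include C hE in
/-- the function `x ↦ nm (t + x) - nm x` is additive only for `t = 0` -/
theorem eq_zero_of_add (hq : 2 ≤ q) {t : E} (h : ∀ x y : E, nm q (t + (x + y)) - nm q (x + y) - (nm q (t + x) - nm q x) -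
    (nm q (t + y) - nm q y) + nm q t = 0) : t = 0 := by
  by_contra ht
  have h1 : ∀ x y : E, tc q (y * (t ^ q * (x ^ q) ^ q + (t ^ q) ^ q * x ^ q)) = 0 := by
    intro x y
    have h2 := h x y
    rw [C.nm_add t (x + y), C.nm_add t x, C.nm_add t y, C.add, C.add] at h2
    have h3 : tc q (y * (t ^ q * (x ^ q) ^ q + (t ^ q) ^ q * x ^ q)) = tc q (t * (x ^ q * (y ^ q) ^ q)) +
        tc q (t * (y ^ q * (x ^ q) ^ q)) := by
      rw [mul_add, C.tc_add]
      congr 1
      · rw [← C.tc_q (t * (x ^ q * (y ^ q) ^ q))]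
        congr 1
        rw [mul_pow, mul_pow, C.cub]
        ring
      · rw [← C.tc_q (t * (y ^ q * (x ^ q) ^ q)), ← C.tc_q ((t * (y ^ q * (x ^ q) ^ q)) ^ q)]
        congr 1
        simp only [mul_pow, C.cub]
        ring
    have h4 : t * ((x ^ q + y ^ q) * ((x ^ q) ^ q + (y ^ q) ^ q)) = t * (x ^ q * (x ^ q) ^ q) + t * (y ^ q * (y ^ q) ^ q) +
        (t * (x ^ q * (y ^ q) ^ q) + t * (y ^ q * (x ^ q) ^ q)) := by ring
    have h5 : (x + y) * (t ^ q * (t ^ q) ^ q) = x * (t ^ q * (t ^ q) ^ q) + y * (t ^ q * (t ^ q) ^ q) := by ring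
    rw [h4, h5] at h2
    simp only [C.tc_add] at h2
    rw [h3]
    linear_combination h2
  have h2 : ∀ x : E, t ^ q * (x ^ q) ^ q + (t ^ q) ^ q * x ^ q = 0 := fun x => tc_nondeg C hE hq fun y => h1 x y
  obtain ⟨x, hx⟩ := exists_not_fix hE hq
  apply hx
  have h3 := h2 1
  rw [one_pow, one_pow, mul_one, mul_one] at h3
  have h4 := h2 x
  have htq : t ^ q ≠ 0 := pow_ne_zero _ ht
  have h5 : t ^ q * ((x ^ q) ^ q - x ^ q) = 0 := by linear_combination h4 - x ^ q * h3
  have h6 := sub_eq_zero.1 ((mul_eq_zero.1 h5).resolve_left htq)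
  exact C.pow_inj h6

end fin

end Cfsg.Agent.H682.EP.L2
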