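import Cfsg.Agent.H875.FnModel
import Cfsg.Agent.LieClassical.SLGen
import Cfsg.Agent.S0242
import Cfsg.Agent.H682.EP.Engine

/-!
# `SL(2, E)`: the overgroups of `U` (helper682, S3499)
-/

set_option autoImplicit false
set_option linter.unusedSectionVars false
set_option linter.unusedVariables false

namespace Cfsg.Agent.H682.EP.L2

open Matrix Subgroup Cfsg.Agent.H911.SLTwo Cfsg.Agent.H682.EP Cfsg.Agent.H875.Fn

variable {E : Type*} [Field E]

/-- the upper unipotent group -/
def Us (E : Type*) [Field E] : Subgroup (SpecialLinearGroup (Fin 2) E) where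
  carrier := {g | ∃ t, g = U t}
  one_mem' := ⟨0, U_zero.symm⟩
  mul_mem' := by
    rintro _ _ ⟨s, rfl⟩ ⟨t, rfl⟩
    exact ⟨_, U_mul s t⟩
  inv_mem' := by
    rintro _ ⟨t, rfl⟩
    exact ⟨_, U_inv t⟩

theorem U_mem (t : E) : U t ∈ Us E := ⟨t, rfl⟩

theorem U_inj {s t : E} (h : U s = U t) : s = t := by
  have := congrArg (fun g : SpecialLinearGroup (Fin 2) E => g.1 0 1) h
  exact this

theorem tr01 (c : E) (h : (0 : Fin 2) ≠ 1) : SpecialLinearGroup.transvection h c = U c := by
  apply Subtype.ext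
  change 1 + Matrix.single 0 1 c = !![1, c; 0, 1]
  ext i j
  fin_cases i <;> fin_cases j <;> simp

theorem tr10 (c : E) (h : (1 : Fin 2) ≠ 0) : SpecialLinearGroup.transvection h c = Lo c := by
  apply Subtype.ext
  change 1 + Matrix.single 1 0 c = !![1, 0; c, 1]
  ext i j
  fin_cases i <;> fin_cases j <;> simp

variable {D : Subgroup (SpecialLinearGroup (Fin 2) E)}

/-- a proper overgroup of `U` consists of upper triangular matrices -/
theorem tri_of_proper (hU : Us E ≤ D) (hne : D ≠ ⊤) {d : SpecialLinearGroup (Fin 2) E} (hd : d ∈ D) : d.1 1 0 = 0 := by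
  by_contra hc
  apply hne
  set g := U (-(d.1 0 0) / d.1 1 0) * d with hg
  have hgD : g ∈ D := D.mul_mem (hU (U_mem _)) hd
  have g00 : g.1 0 0 = 0 := by
    rw [hg, m00, U00, U01]
    field_simp
    ring
  have g10 : g.1 1 0 ≠ 0 := by
    rw [hg, m10, U10, U11]
    simpa using hc
  have hL : ∀ x : E, Lo x ∈ D := by
    intro x
    have h1 : Lo x = g * U (-x / (g.1 1 0) ^ 2) * g⁻¹ := by
      rw [eq_mul_inv_iff_mul_eq]
      have hdet := det_eq g
      rw [g00, zero_mul, zero_sub] at hdet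
      apply ext' <;> simp only [m00, m01, m10, m11, U00, U01, U10, U11, Lo00, Lo01, Lo10, Lo11, g00]
      · ring
      · ring
      · ring
      · field_simp
        linear_combination (-x) * hdet
    rw [h1]
    exact D.mul_mem (D.mul_mem hgD (hU (U_mem _))) (D.inv_mem hgD)
  rw [eq_top_iff, ← Cfsg.Agent.LieClassical.SLGen.closure_transvections, Subgroup.closure_le]
  rintro _ ⟨i, j, hij, c, rfl⟩
  have hi : i = 0 ∧ j = 1 ∨ i = 1 ∧ j = 0 := by
    revert hij
    revert i j
    decide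
  rcases hi with ⟨rfl, rfl⟩ | ⟨rfl, rfl⟩
  · rw [SetLike.mem_coe, tr01]
    exact hU (U_mem c)
  · rw [SetLike.mem_coe, tr10]
    exact hL c

/-- **the core of `U`** -/
theorem core_L2 (hU : Us E ≤ D) (hne : D ≠ ⊤) : coreIn D (Us E) = Us E := by
  apply coreIn_eq
  rintro d hd _ ⟨t, rfl⟩
  have h1 := tri_of_proper hU hne hd
  have hdet := det_eq d
  rw [h1, mul_zero, sub_zero] at hdet
  refine ⟨d.1 0 0 ^ 2 * t, ?_⟩
  apply ext' <;> simp only [m00, m01, m10, m11, U00, U01, U10, U11, i00, i01, i10, i11, h1]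
  · linear_combination hdet
  · ring
  · ring
  · linear_combination hdet

theorem card_Us [Finite E] : Nat.card (Us E) = Nat.card E := by
  refine (Nat.card_congr (Equiv.ofBijective (fun t : E => (⟨U t, U_mem t⟩ : Us E)) ⟨?_, ?_⟩)).symm
  · intro s t h
    exact U_inj (congrArg Subtype.val h)
  · rintro ⟨_, t, rfl⟩
    exact ⟨t, rfl⟩

theorem Us_pgroup [Finite E] {p : ℕ} [Fact p.Prime] [CharP E p] : IsPGroup p (Us E) := by
  have := Fintype.ofFinite E
  obtain ⟨n, -, hn⟩ := FiniteField.card E p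
  refine IsPGroup.of_card (n := n) ?_
  rw [card_Us, Nat.card_eq_fintype_card, hn]

theorem card_SL2 [Finite E] : Nat.card (Matrix.SpecialLinearGroup (Fin 2) E) =
    Nat.card E * (Nat.card E ^ 2 - 1) := by
  have : Fintype E := Fintype.ofFinite E
  have h1 := Cfsg.Agent.S0242.result (F := E) rfl 2 (by norm_num)
  have hq : 2 ≤ Fintype.card E := Fintype.one_lt_card
  rw [Fin.prod_univ_two] at h1
  have h3 : Fintype.card E ^ 2 - Fintype.card E ^ 1 = (Fintype.card E - 1) * Fintype.card E := by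
    rw [Nat.sub_mul, one_mul, pow_one, pow_two]
  simp only [Fin.val_zero, Fin.val_one, pow_zero] at h1
  rw [h3] at h1
  have h4 : (Fintype.card E - 1) * Nat.card (Matrix.SpecialLinearGroup (Fin 2) E) =
      (Fintype.card E - 1) * (Fintype.card E * (Fintype.card E ^ 2 - 1)) := by rw [h1]; ring
  rw [Nat.card_eq_fintype_card (α := E)]
  exact Nat.eq_of_mul_eq_mul_left (by omega) h4

theorem Us_index [Finite E] {p : ℕ} [hp : Fact p.Prime] [CharP E p] : ¬ p ∣ (Us E).index := by
  have := Fintype.ofFinite E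
  obtain ⟨n, hpr, hn⟩ := FiniteField.card E p
  have h1 := Subgroup.card_mul_index (Us E)
  rw [card_Us, card_SL2, Nat.card_eq_fintype_card] at h1
  have hq : 2 ≤ Fintype.card E := Fintype.one_lt_card
  have h2 := Nat.eq_of_mul_eq_mul_left (by positivity) h1
  rw [h2]
  intro h5
  have hpq : p ∣ Fintype.card E := by
    rw [hn]
    exact dvd_pow_self p n.ne_zero
  have h6 : p ∣ Fintype.card E ^ 2 := dvd_pow hpq (by norm_num)
  have h7 : 1 ≤ Fintype.card E ^ 2 := Nat.one_le_pow _ _ (by omega)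
  have h8 := (Nat.dvd_sub h6 h5)
  rw [Nat.sub_sub_self h7] at h8
  exact hp.out.one_lt.ne' (Nat.dvd_one.1 h8)

/-! ### the action on columns -/

theorem mv_one (c : E × E) : mv 1 c = c := by
  unfold mv
  rw [o00, o01, o10, o11]
  ext <;> simp

theorem mv_mul (g h : SpecialLinearGroup (Fin 2) E) (c : E × E) : mv (g * h) c = mv g (mv h c) := by
  unfold mv
  rw [m00, m01, m10, m11]
  ext <;> simp <;> ring

theorem mv_smul (g : SpecialLinearGroup (Fin 2) E) (t : E) (c : E × E) : mv g (t • c) = t • mv g c := by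
  unfold mv
  ext <;> simp <;> ring

theorem mv_U (t : E) (c : E × E) : mv (U t) c = (c.1 + t * c.2, c.2) := by
  unfold mv
  rw [U00, U01, U10, U11]
  ext <;> simp

theorem mv_hh (s : Eˣ) (c : E × E) : mv (hh s) c = (s * c.1, ((s⁻¹ : Eˣ) : E) * c.2) := by
  unfold mv
  rw [hh00, hh01, hh10, hh11]
  ext <;> simp

/-- the determinant -/
def dt (c d : E × E) : E := c.1 * d.2 - c.2 * d.1

theorem dt_mv (g : SpecialLinearGroup (Fin 2) E) (c d : E × E) : dt (mv g c) (mv g d) = dt c d := by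
  have hdet := det_eq g
  unfold dt mv
  simp only
  linear_combination (c.1 * d.2 - c.2 * d.1) * hdet

theorem exists_mv {c d : E × E} (h : dt c d = 1) : ∃ g : SpecialLinearGroup (Fin 2) E, mv g (1, 0) = c ∧ mv g (0, 1) = d := by
  refine ⟨⟨!![c.1, d.1; c.2, d.2], ?_⟩, ?_, ?_⟩
  · rw [Matrix.det_fin_two_of]
    unfold dt at h
    linear_combination h
  · unfold mv
    ext <;> simp
  · unfold mv
    ext <;> simp

theorem exists_mv_one {c : E × E} (h : c ≠ 0) : ∃ g : SpecialLinearGroup (Fin 2) E, mv g (1, 0) = c := by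
  by_cases h1 : c.1 = 0
  · have h2 : c.2 ≠ 0 := fun h2 => h (Prod.ext h1 h2)
    obtain ⟨g, hg, -⟩ := exists_mv (c := c) (d := (-(c.2)⁻¹, 0)) (by unfold dt; field_simp; ring)
    exact ⟨g, hg⟩
  · obtain ⟨g, hg, -⟩ := exists_mv (c := c) (d := (0, (c.1)⁻¹)) (by unfold dt; field_simp; ring)
    exact ⟨g, hg⟩

/-- the stabiliser of `(1, 0)` -/
theorem mem_Us_iff {g : SpecialLinearGroup (Fin 2) E} : g ∈ Us E ↔ mv g (1, 0) = (1, 0) := by
  constructor
  · rintro ⟨t, rfl⟩
    rw [mv_U]
    simp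
  · intro h
    have h00 := congrArg Prod.fst h
    have h10 := congrArg Prod.snd h
    unfold mv at h00 h10
    simp at h00 h10
    have hdet := det_eq g
    rw [h00, h10, one_mul, mul_zero, sub_zero] at hdet
    exact ⟨g.1 0 1, ext' h00 rfl h10 hdet⟩

end Cfsg.Agent.H682.EP.L2
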