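import Cfsg.Agent.H929.UThreePlanes
import Cfsg.Agent.LieClassical.HermGen
import Cfsg.Agent.H682.EP.Engine

/-!
# `SU(3, q)`: the stabiliser of an isotropic vector and its overgroups (helper682, S3499)
-/

set_option autoImplicit false
set_option linter.unusedSectionVars false
set_option linter.unusedVariables false

namespace Cfsg.Agent.H682.EP.SUn

open Cfsg Cfsg.Agent.LieClassical.HermSiegel Cfsg.Agent.LieClassical.HermBasic Cfsg.Agent.LieClassical.HermGen
  Cfsg.Agent.H929.U3 Matrix Cfsg.Agent.H682.EP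

variable {E : Type*} [Field E] [Fintype E] {q : ℕ}

/-! ### overgroups -/

theorem stab_conj {g : SU 3 E q} {e : Fin 3 → E} {D : Subgroup (SU 3 E q)} (h : Stab q e ≤ D) (hg : g ∈ D) :
    Stab q (act g e) ≤ D := by
  intro k hk
  have h1 : g⁻¹ * k * g ∈ Stab q e := by
    rw [mem_Stab, act_mul, act_mul, mem_Stab.1 hk, act_inv_act]
  have h2 : k = g * (g⁻¹ * k * g) * g⁻¹ := by group
  rw [h2]
  exact D.mul_mem (D.mul_mem hg (h h1)) (D.inv_mem hg)

theorem stab_smul {e : Fin 3 → E} {t : E} (ht : t ≠ 0) : Stab q (t • e) = Stab q e := by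
  ext g
  rw [mem_Stab, mem_Stab, act_smul]
  exact smul_right_injective _ ht |>.eq_iff

theorem top_of_stab (hF : Fintype.card E = q ^ 2) {D : Subgroup (SU 3 E q)}
    (h : ∀ u, hermForm 3 E q u u = 0 → u ≠ 0 → Stab q u ≤ D) : D = ⊤ := by
  rw [eq_top_iff, ← siegelGroup_eq_top hF (le_refl 3), siegelGroup, Subgroup.closure_le]
  rintro _ ⟨u, w, μ, hs, rfl⟩
  by_cases hu : u = 0
  · subst hu
    have h1 : siegel hF 0 w μ hs = 1 := by
      apply ext_act
      intro v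
      rw [act_siegel, act_one, herm_zero_right hF, zero_smul, smul_zero, add_zero, add_zero]
    rw [h1]
    exact D.one_mem
  · exact h u hs.iso hu (act_siegel_self hF hs)

/-- **a proper overgroup stabilises the line** -/
theorem line_of_proper (hF : Fintype.card E = q ^ 2) {e : Fin 3 → E} (he : hermForm 3 E q e e = 0) (he0 : e ≠ 0)
    {D : Subgroup (SU 3 E q)} (hD : Stab q e ≤ D) (hne : D ≠ ⊤) {d : SU 3 E q} (hd : d ∈ D) :
    ∃ t : E, t ≠ 0 ∧ act d e = t • e := by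
  have hv : hermForm 3 E q (act d e) (act d e) = 0 := by rw [herm_act, he]
  have hv0 : act d e ≠ 0 := by rw [Ne, act_eq_zero]; exact he0
  by_cases hs : hermForm 3 E q (act d e) e = 0
  · obtain ⟨t, ht⟩ := eq_smul_of_orth hF he he0 hv hs
    refine ⟨t, ?_, ht⟩
    rintro rfl
    rw [zero_smul] at ht
    exact hv0 ht
  · exfalso
    apply hne
    apply top_of_stab hF
    intro u hu hu0
    by_cases hs' : hermForm 3 E q u e = 0
    · obtain ⟨t, rfl⟩ := eq_smul_of_orth hF he he0 hu hs'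
      have ht : t ≠ 0 := by
        rintro rfl
        exact hu0 (zero_smul _ _)
      rw [stab_smul ht]
      exact hD
    · set k := hermForm 3 E q (act d e) e / hermForm 3 E q u e with hk
      have hk0 : k ≠ 0 := div_ne_zero hs hs'
      have h1 : hermForm 3 E q (k • u) e = hermForm 3 E q (act d e) e := by
        rw [herm_smul_left, hk, div_mul_cancel₀ _ hs']
      obtain ⟨g, hg1, hg2⟩ := exists_act_fix hF he hv (v' := k • u)
        (by rw [herm_smul_left, herm_smul_right, hu, mul_zero, mul_zero]) h1.symm hs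
      rw [← stab_smul hk0, ← hg2, ← act_mul]
      exact stab_conj hD (D.mul_mem (hD hg1) hd)

/-- **The core of `U` in a proper overgroup is `U`.** -/
theorem core_SU (hF : Fintype.card E = q ^ 2) {e : Fin 3 → E} (he : hermForm 3 E q e e = 0) (he0 : e ≠ 0)
    {D : Subgroup (SU 3 E q)} (hD : Stab q e ≤ D) (hne : D ≠ ⊤) : coreIn D (Stab q e) = Stab q e := by
  apply coreIn_eq
  intro d hd u hu
  obtain ⟨t, ht, h1⟩ := line_of_proper hF he he0 hD hne (D.inv_mem hd)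
  rw [mem_Stab, act_mul, act_mul, h1, act_smul, mem_Stab.1 hu, ← h1, act_act_inv]

theorem stab_ne_bot (hF : Fintype.card E = q ^ 2) {e : Fin 3 → E} (he : hermForm 3 E q e e = 0) (he0 : e ≠ 0) :
    Stab q e ≠ ⊥ := by
  intro h
  have h1 := card_Stab hF he he0
  rw [h, Subgroup.card_bot] at h1
  have h2 := two_le hF
  have h3 : 2 ^ 3 ≤ q ^ 3 := Nat.pow_le_pow_left h2 3
  omega

theorem stab_index (hF : Fintype.card E = q ^ 2) {p : ℕ} [hp : Fact p.Prime] [CharP E p] {e : Fin 3 → E}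
    (he : hermForm 3 E q e e = 0) (he0 : e ≠ 0) : ¬ p ∣ (Stab q e).index := by
  obtain ⟨n, hn⟩ : ∃ n, q = p ^ n := by
    obtain ⟨m, -, hm⟩ := FiniteField.card E p
    rw [hF] at hm
    exact (Nat.dvd_prime_pow hp.out).1 (hm ▸ Dvd.intro_left q (by ring) : q ∣ p ^ (m : ℕ)) |>.imp fun k hk => hk.2
  have h2 := two_le hF
  have hn0 : n ≠ 0 := by
    rintro rfl
    rw [pow_zero] at hn
    omega
  have hpq : p ∣ q := by
    rw [hn]
    exact dvd_pow_self p hn0
  have h1 := Subgroup.card_mul_index (Stab q e)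
  rw [card_Stab hF he he0, card_SU3 hF] at h1
  have h3 := Nat.eq_of_mul_eq_mul_left (by positivity) h1
  rw [h3]
  intro h4
  rcases (Nat.Prime.dvd_mul hp.out).1 h4 with h5 | h5
  · have h6 : p ∣ q ^ 3 := dvd_pow hpq (by norm_num)
    exact hp.out.one_lt.ne' (Nat.dvd_one.1 ((Nat.dvd_add_right h6).1 h5))
  · have h6 : p ∣ q ^ 2 := dvd_pow hpq (by norm_num)
    have h7 : 1 ≤ q ^ 2 := Nat.one_le_pow _ _ (by omega)
    have h8 := (Nat.dvd_sub h6 h5)
    rw [Nat.sub_sub_self h7] at h8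
    exact hp.out.one_lt.ne' (Nat.dvd_one.1 h8)

/-! ### the elements of `U` -/

/-- the Siegel conditions in a frame -/
theorem isSiegel_fr (hF : Fintype.card E = q ^ 2) {e₁ e₂ e₃ : Fin 3 → E} (h : Fr q e₁ e₂ e₃) {x μ : E}
    (hx : μ + μ ^ q + x * x ^ q = 0) : IsSiegel q e₁ (x • e₂) μ := by
  refine ⟨h.h11, ?_, ?_⟩
  · rw [herm_smul_left, h.h21 hF, mul_zero]
  · rw [herm_smul_left, herm_smul_right, h.h22, mul_one]
    exact hx

/-- the action in coordinates -/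
theorem act_sie (hF : Fintype.card E = q ^ 2) {e₁ e₂ e₃ : Fin 3 → E} (h : Fr q e₁ e₂ e₃) {x μ : E}
    (hx : μ + μ ^ q + x * x ^ q = 0) (w : Fin 3 → E) : act (siegel hF e₁ (x • e₂) μ (isSiegel_fr hF h hx)) w =
      w + (hermForm 3 E q w e₁ * x) • e₂ + (μ * hermForm 3 E q w e₁ - x ^ q * hermForm 3 E q w e₂) • e₁ := by
  rw [act_siegel, herm_smul_right, smul_smul]

theorem herm_sie_one (hF : Fintype.card E = q ^ 2) {e₁ e₂ e₃ : Fin 3 → E} (h : Fr q e₁ e₂ e₃) {x μ : E}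
    (hx : μ + μ ^ q + x * x ^ q = 0) (w : Fin 3 → E) :
    hermForm 3 E q (act (siegel hF e₁ (x • e₂) μ (isSiegel_fr hF h hx)) w) e₁ = hermForm 3 E q w e₁ := by
  rw [act_sie hF h hx, herm_add_left, herm_add_left, herm_smul_left, herm_smul_left, h.h11, h.h21 hF, mul_zero,
    mul_zero, add_zero, add_zero]

theorem herm_sie_two (hF : Fintype.card E = q ^ 2) {e₁ e₂ e₃ : Fin 3 → E} (h : Fr q e₁ e₂ e₃) {x μ : E}
    (hx : μ + μ ^ q + x * x ^ q = 0) (w : Fin 3 → E) :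
    hermForm 3 E q (act (siegel hF e₁ (x • e₂) μ (isSiegel_fr hF h hx)) w) e₂ =
      hermForm 3 E q w e₂ + x * hermForm 3 E q w e₁ := by
  rw [act_sie hF h hx, herm_add_left, herm_add_left, herm_smul_left, herm_smul_left, h.h12, h.h22]
  ring

theorem herm_sie_three (hF : Fintype.card E = q ^ 2) {e₁ e₂ e₃ : Fin 3 → E} (h : Fr q e₁ e₂ e₃) {x μ : E}
    (hx : μ + μ ^ q + x * x ^ q = 0) :
    hermForm 3 E q (act (siegel hF e₁ (x • e₂) μ (isSiegel_fr hF h hx)) e₃) e₃ = μ := by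
  rw [act_sie hF h hx, herm_add_left, herm_add_left, herm_smul_left, herm_smul_left, h.h33, h.h23, h.h13, h.h31 hF,
    h.h32 hF]
  ring

theorem stab_siegel (hF : Fintype.card E = q ^ 2) {e₁ e₂ e₃ : Fin 3 → E} (h : Fr q e₁ e₂ e₃) (he0 : e₁ ≠ 0)
    {g : SU 3 E q} (hg : g ∈ Stab q e₁) : ∃ (x μ : E) (hx : μ + μ ^ q + x * x ^ q = 0),
      g = siegel hF e₁ (x • e₂) μ (isSiegel_fr hF h hx) := by
  let f : HP q E → Stab q e₁ := fun z => ⟨siegel hF e₁ (z.1.1 • e₂) z.1.2 (isSiegel_fr hF h z.2),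
    act_siegel_self hF _⟩
  have hf : Function.Injective f := by
    intro z z' e
    have e' : siegel hF e₁ (z.1.1 • e₂) z.1.2 (isSiegel_fr hF h z.2) =
        siegel hF e₁ (z'.1.1 • e₂) z'.1.2 (isSiegel_fr hF h z'.2) := congrArg Subtype.val e
    have h2 := herm_sie_two hF h z.2 e₃
    have h3 := herm_sie_three hF h z.2
    rw [e', herm_sie_two hF h z'.2, h.h32 hF, h.h31 hF] at h2
    rw [e', herm_sie_three hF h z'.2] at h3
    apply Subtype.ext
    apply Prod.ext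
    · linear_combination -h2
    · exact h3.symm
  have hc : Nat.card (HP q E) = Nat.card (Stab q e₁) := by rw [card_HP hF, card_Stab hF h.h11 he0]
  have hb : Function.Bijective f := (Nat.bijective_iff_injective_and_card f).2 ⟨hf, hc⟩
  obtain ⟨z, hz⟩ := hb.2 ⟨g, hg⟩
  exact ⟨z.1.1, z.1.2, z.2, (congrArg Subtype.val hz).symm⟩

theorem herm_sie_three' (hF : Fintype.card E = q ^ 2) {e₁ e₂ e₃ : Fin 3 → E} (h : Fr q e₁ e₂ e₃) {x μ : E}
    (hx : μ + μ ^ q + x * x ^ q = 0) (w : Fin 3 → E) :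
    hermForm 3 E q (act (siegel hF e₁ (x • e₂) μ (isSiegel_fr hF h hx)) w) e₃ =
      hermForm 3 E q w e₃ + (μ * hermForm 3 E q w e₁ - x ^ q * hermForm 3 E q w e₂) := by
  rw [act_sie hF h hx, herm_add_left, herm_add_left, herm_smul_left, herm_smul_left, h.h23, h.h13]
  ring

theorem herm_sie_mul (hF : Fintype.card E = q ^ 2) {e₁ e₂ e₃ : Fin 3 → E} (h : Fr q e₁ e₂ e₃) {x μ : E}
    (hx : μ + μ ^ q + x * x ^ q = 0) {x' μ' : E} (hx' : μ' + μ' ^ q + x' * x' ^ q = 0) :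
    hermForm 3 E q (act (siegel hF e₁ (x' • e₂) μ' (isSiegel_fr hF h hx') * siegel hF e₁ (x • e₂) μ (isSiegel_fr hF h hx))
      e₃) e₃ = μ + μ' - x' ^ q * x := by
  rw [act_mul, herm_sie_three' hF h hx', herm_sie_three' hF h hx, herm_sie_one hF h hx, herm_sie_two hF h hx,
    h.h31 hF, h.h32 hF, h.h33]
  ring

/-- central elements of `U` -/
theorem central_siegel (hF : Fintype.card E = q ^ 2) {e₁ e₂ e₃ : Fin 3 → E} (h : Fr q e₁ e₂ e₃) {x μ : E}
    (hx : μ + μ ^ q + x * x ^ q = 0) (hc : ∀ u ∈ Stab q e₁, u * siegel hF e₁ (x • e₂) μ (isSiegel_fr hF h hx) =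
      siegel hF e₁ (x • e₂) μ (isSiegel_fr hF h hx) * u) : x = 0 := by
  by_contra hx0
  obtain ⟨ν, hν⟩ := exists_not_fixed hF
  obtain ⟨μ', hμ'⟩ := exists_root hF (ν / x ^ q)
  have h1 := hc (siegel hF e₁ ((ν / x ^ q) • e₂) μ' (isSiegel_fr hF h hμ')) (act_siegel_self hF _)
  have h2 := congrArg (fun g : SU 3 E q => hermForm 3 E q (act g e₃) e₃) h1
  have hxq : x ^ q ≠ 0 := pow_ne_zero _ hx0
  rw [herm_sie_mul hF h hx hμ', herm_sie_mul hF h hμ' hx, div_pow, pow_q_pow_q hF] at h2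
  apply hν
  field_simp at h2
  linear_combination -h2

/-! ### the torus -/

/-- the matrix of the torus element -/
def torMat (q : ℕ) (l : E) (e₂ : Fin 3 → E) : Matrix (Fin 3) (Fin 3) E :=
  l • (1 + Matrix.vecMulVec (((l ^ 3)⁻¹ - 1) • e₂) (fun j => e₂ j ^ q))

theorem torMat_mulVec (l : E) (e₂ v : Fin 3 → E) : torMat q l e₂ *ᵥ v =
    l • (v + (((l ^ 3)⁻¹ - 1) * hermForm 3 E q v e₂) • e₂) := by
  have h1 : (fun j => e₂ j ^ q) ⬝ᵥ v = hermForm 3 E q v e₂ := by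
    rw [herm_def, dotProduct]; exact Finset.sum_congr rfl fun _ _ => mul_comm _ _
  rw [torMat, Matrix.smul_mulVec, Matrix.add_mulVec, Matrix.one_mulVec, Matrix.vecMulVec_mulVec, h1, op_smul_eq_smul,
    smul_smul, mul_comm]

theorem torMat_det {l : E} (hl : l ≠ 0) {e₂ : Fin 3 → E} (h : hermForm 3 E q e₂ e₂ = 1) : (torMat q l e₂).det = 1 := by
  have h1 : (fun j => e₂ j ^ q) ⬝ᵥ (((l ^ 3)⁻¹ - 1) • e₂) = (l ^ 3)⁻¹ - 1 := by
    have h2 : (fun j => e₂ j ^ q) ⬝ᵥ e₂ = hermForm 3 E q e₂ e₂ := by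
      rw [herm_def, dotProduct]; exact Finset.sum_congr rfl fun _ _ => mul_comm _ _
    rw [dotProduct_smul, h2, h, smul_eq_mul, mul_one]
  rw [torMat, Matrix.det_smul, Fintype.card_fin, Matrix.vecMulVec_eq (ι := Unit), Matrix.det_one_add_replicateCol_mul_replicateRow, h1]
  have : l ^ 3 ≠ 0 := pow_ne_zero _ hl
  field_simp
  ring

theorem torMat_herm (hF : Fintype.card E = q ^ 2) {l : E} (hl : l * l ^ q = 1) {e₂ : Fin 3 → E}
    (h : hermForm 3 E q e₂ e₂ = 1) (u v : Fin 3 → E) :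
    hermForm 3 E q (torMat q l e₂ *ᵥ u) (torMat q l e₂ *ᵥ v) = hermForm 3 E q u v := by
  have hl0 : l ≠ 0 := by
    rintro rfl
    rw [zero_mul] at hl
    exact zero_ne_one hl
  have h1 : hermForm 3 E q e₂ v = (hermForm 3 E q v e₂) ^ q := herm_swap hF v e₂
  simp only [torMat_mulVec, herm_add_left, herm_add_right hF, herm_smul_left, herm_smul_right, h, h1, mul_pow,
    sub_pow_q hF, inv_pow, one_pow]
  have h2 : l ^ q = l⁻¹ := eq_inv_of_mul_eq_one_right hl
  have h3 : (l ^ 3) ^ q = (l⁻¹) ^ 3 := by rw [← pow_mul, mul_comm, pow_mul, h2]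
  rw [h3, h2]
  field_simp
  ring

/-- the torus element -/
def tor (hF : Fintype.card E = q ^ 2) {l : E} (hl : l * l ^ q = 1) {e₂ : Fin 3 → E} (h : hermForm 3 E q e₂ e₂ = 1) :
    SU 3 E q := mkSU (torMat q l e₂) (torMat_det (by
      rintro rfl
      rw [zero_mul] at hl
      exact zero_ne_one hl) h) (torMat_herm hF hl h)

theorem act_tor (hF : Fintype.card E = q ^ 2) {l : E} (hl : l * l ^ q = 1) {e₂ : Fin 3 → E}
    (h : hermForm 3 E q e₂ e₂ = 1) (v : Fin 3 → E) :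
    act (tor hF hl h) v = l • (v + (((l ^ 3)⁻¹ - 1) * hermForm 3 E q v e₂) • e₂) := torMat_mulVec l e₂ v

end Cfsg.Agent.H682.EP.SUn
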