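import Cfsg.Agent.H682.EP.SUVec

/-!
# S3499, own characteristic: `PSU(3, q)` in dimension 8, the contradiction (helper682)
-/

set_option autoImplicit false
set_option linter.unusedSectionVars false
set_option linter.unusedVariables false

namespace Cfsg.Agent.H682.EP.SUn

open Cfsg Cfsg.Geo Cfsg.Agent.LieClassical.HermSiegel Cfsg.Agent.LieClassical.HermBasic Matrix QuadraticMap
  Cfsg.Agent.H929.U3 Subgroup Cfsg.Agent.H284 Cfsg.Agent.H419.EP
open scoped MatrixGroups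

/-- an element of order `p` centralising a Sylow subgroup lies in it -/
theorem mem_of_comm_sylow {G : Type*} [Group G] [Finite G] {p : ℕ} [Fact p.Prime] {U : Subgroup G} (hU : IsPGroup p U)
    (hi : ¬ p ∣ U.index) {x : G} (hx : x ^ p = 1) (hc : ∀ u ∈ U, x * u = u * x) : x ∈ U := by
  have h1 : IsPGroup p (zpowers x) := by
    rintro ⟨g, hg⟩
    obtain ⟨k, rfl⟩ := mem_zpowers_iff.1 hg
    refine ⟨1, Subtype.ext ?_⟩
    change (x ^ k) ^ p ^ 1 = 1
    rw [pow_one, ← zpow_natCast, ← _root_.zpow_mul, mul_comm, _root_.zpow_mul, zpow_natCast, hx, _root_.one_zpow]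
  have h2 : zpowers x ≤ normalizer (U : Set G) := by
    rw [zpowers_le]
    refine mem_normalizer_fintype fun u hu => ?_
    rw [hc u hu, mul_inv_cancel_right]
    exact hu
  have h3 := hU.to_sup_of_normal_left' h1 h2
  have h4 := (hU.toSylow hi).is_maximal' h3 le_sup_left
  have h5 : x ∈ U ⊔ zpowers x := mem_sup_right (mem_zpowers x)
  rw [h4] at h5
  exact h5

variable {F : Type*} [Field F] {ι : Type} [Fintype ι] [DecidableEq ι] {E : Type} [Field E] [Fintype E] {q : ℕ}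
  {K : Type*} [Field K]

/-- the function of a root vector -/
def tv (q : ℕ) (e₁ e₂ : Fin 3 → E) (κ : E) (w : Fin 3 → E) : E :=
  κ * (hermForm 3 E q w e₂ * hermForm 3 E q w e₁ ^ q) + (κ * (hermForm 3 E q w e₂ * hermForm 3 E q w e₁ ^ q)) ^ q

namespace Dat

variable {rep : SU 3 E q →* GL ι F} {Q : (ι → F) → F} {V : Iso q E → ι → F} {c : F} {i : F →+* K} {j : E →+* K}
  (D : Dat rep Q V c i j) {e₁ e₂ e₃ : Fin 3 → E} (h : Fr q e₁ e₂ e₃) (he0 : e₁ ≠ 0) {v : E → ι → F}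
  (hv : ∀ κ, Rp Q V c i j (v κ) (tv q e₁ e₂ κ))

include D hv in
theorem v_add (κ κ' : E) : v (κ + κ') = v κ + v κ' := by
  refine D.uniq (hv _) (D.rp_add (hv κ) (hv κ')) fun w => ?_
  unfold tv
  rw [add_mul, add_pow_q D.hE]
  ring

include D hv in
theorem v_zero : v 0 = 0 := by
  have h1 := v_add D hv 0 0
  rw [add_zero] at h1
  exact (left_eq_add.1 h1)

include D hv in
theorem v_neg (κ : E) : v (-κ) = -v κ := by
  have h1 := v_add D hv κ (-κ)
  rw [add_neg_cancel, v_zero D hv] at h1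
  exact (neg_eq_of_add_eq_zero_right h1.symm).symm

include D h hv in
theorem z_v (κ : E) : polar Q (V ⟨e₁, h.h11, he0⟩) (v κ) = 0 := by
  apply i.injective
  rw [polar_comm, hv κ, map_zero]
  have h1 : tv q e₁ e₂ κ e₁ = 0 := by
    unfold tv
    rw [h.h11, zero_pow_q D.hE, mul_zero, mul_zero, zero_pow_q D.hE, add_zero]
  rw [h1, map_zero, mul_zero]

include D in
theorem u_z {u : SU 3 E q} (hu : u ∈ Stab q e₁) :
    (rep u : Matrix ι ι F) *ᵥ V ⟨e₁, h.h11, he0⟩ = V ⟨e₁, h.h11, he0⟩ := by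
  rw [D.actV]
  congr 1
  exact Subtype.ext hu

include D h hv in
theorem u_v {u : SU 3 E q} (hu : u ∈ Stab q e₁) (κ : E) :
    ∃ a : F, (rep u : Matrix ι ι F) *ᵥ v κ = v κ + a • V ⟨e₁, h.h11, he0⟩ := by
  obtain ⟨x, μ, hx, hs⟩ := stab_siegel D.hE h he0 ((Stab q e₁).inv_mem hu)
  obtain ⟨a, ha⟩ := D.rat (j (κ * x + (κ * x) ^ q)) (by rw [← map_pow, trace_pow_q D.hE])
  refine ⟨a, D.uniq (D.rp_act (hv κ) u) (D.rp_add (hv κ) (D.rp_smul (D.rp_V _) ha)) fun w => ?_⟩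
  rw [hs]
  unfold tv
  rw [herm_sie_one D.hE h hx, herm_sie_two D.hE h hx]
  simp only [mul_pow, add_pow_q D.hE, pow_q_pow_q D.hE]
  ring

section torus

variable {l : E} (hl : l * l ^ q = 1)

theorem act_tor_one (hE : Fintype.card E = q ^ 2) : act (tor hE hl h.h22) e₁ = l • e₁ := by
  rw [act_tor, h.h12, mul_zero, zero_smul, add_zero]

include hl in
theorem l_ne : l ≠ 0 := by
  rintro rfl
  rw [zero_mul] at hl
  exact zero_ne_one hl

theorem act_tor_two (hE : Fintype.card E = q ^ 2) : act (tor hE hl h.h22) e₂ = (l ^ 2)⁻¹ • e₂ := by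
  have hl0 := l_ne hl
  rw [act_tor, h.h22, mul_one]
  have h1 : e₂ + ((l ^ 3)⁻¹ - 1) • e₂ = (l ^ 3)⁻¹ • e₂ := by module
  rw [h1, smul_smul]
  congr 1
  field_simp

include D h hl in
theorem c_z : (rep (tor D.hE hl h.h22) : Matrix ι ι F) *ᵥ V ⟨e₁, h.h11, he0⟩ = V ⟨e₁, h.h11, he0⟩ := by
  rw [D.actV]
  refine D.uniq (D.rp_V _) (D.rp_V _) fun w => ?_
  change hermForm 3 E q w (act (tor D.hE hl h.h22) e₁) * hermForm 3 E q w (act (tor D.hE hl h.h22) e₁) ^ q = _
  rw [act_tor_one h hl, herm_smul_right, mul_pow, pow_q_pow_q D.hE]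
  linear_combination (hermForm 3 E q w e₁ * hermForm 3 E q w e₁ ^ q) * hl

include D h hl hv in
theorem c_v (κ : E) : (rep (tor D.hE hl h.h22) : Matrix ι ι F) *ᵥ v κ = v (l ^ 3 * κ) := by
  refine D.uniq (D.rp_act (hv κ) _) (hv _) fun w => ?_
  have hl0 := l_ne hl
  have hlq : l ^ q = l⁻¹ := eq_inv_of_mul_eq_one_right hl
  have h0 : ((l ^ 2)⁻¹) ^ q = l ^ 2 := by rw [inv_pow, ← pow_mul, mul_comm 2 q, pow_mul, hlq, inv_pow, inv_inv]
  have h1 : hermForm 3 E q (act (tor D.hE hl h.h22)⁻¹ w) e₂ = l ^ 2 * hermForm 3 E q w e₂ := by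
    rw [herm_act_left, inv_inv, act_tor_two h hl, herm_smul_right, h0]
  have h2 : hermForm 3 E q (act (tor D.hE hl h.h22)⁻¹ w) e₁ = l⁻¹ * hermForm 3 E q w e₁ := by
    rw [herm_act_left, inv_inv, act_tor_one h hl, herm_smul_right, hlq]
  have h3 : (l⁻¹) ^ q = l := by rw [inv_pow, hlq, inv_inv]
  unfold tv
  rw [h1, h2, mul_pow l⁻¹, h3]
  have h4 : κ * (l ^ 2 * hermForm 3 E q w e₂ * (l * hermForm 3 E q w e₁ ^ q)) =
      l ^ 3 * κ * (hermForm 3 E q w e₂ * hermForm 3 E q w e₁ ^ q) := by ring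
  rw [h4]

end torus

/-! ### the elements `T κ` -/

/-- the Siegel element -/
noncomputable def T (κ : E) : GL ι F := sg D.hQ (V ⟨e₁, h.h11, he0⟩) (v κ) (D.sing _) (z_v D h he0 hv κ)

theorem T_mul (κ κ' : E) : T D h he0 hv κ * T D h he0 hv κ' = T D h he0 hv (κ + κ') := by
  unfold T
  have h1 : polar Q (V ⟨e₁, h.h11, he0⟩) (v κ + v κ') = 0 := by rw [← v_add D hv]; exact z_v D h he0 hv _
  rw [sg_mul D.hQ _ _ _ h1]
  exact sg_congr D.hQ _ _ _ _ rfl (v_add D hv κ κ').symm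

theorem T_zero : T D h he0 hv 0 = 1 := by
  have h1 := T_mul D h he0 hv 0 0
  rw [add_zero] at h1
  exact mul_eq_left.1 h1

theorem T_inv (κ : E) : (T D h he0 hv κ)⁻¹ = T D h he0 hv (-κ) := by
  rw [inv_eq_iff_mul_eq_one, T_mul, add_neg_cancel, T_zero]

theorem T_pow (κ : E) (n : ℕ) : T D h he0 hv κ ^ n = T D h he0 hv (n • κ) := by
  induction n with
  | zero => rw [pow_zero, zero_smul, T_zero]
  | succ n ih => rw [pow_succ, ih, T_mul, succ_nsmul]

/-- conjugation -/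
theorem T_conj {g : SU 3 E q} (hg : (rep g : Matrix ι ι F) *ᵥ V ⟨e₁, h.h11, he0⟩ = V ⟨e₁, h.h11, he0⟩) {κ κ' : E}
    {a : F} (hk : (rep g : Matrix ι ι F) *ᵥ v κ = v κ' + a • V ⟨e₁, h.h11, he0⟩) :
    rep g * T D h he0 hv κ * (rep g)⁻¹ = T D h he0 hv κ' := by
  unfold T
  have h1 : Q ((rep g : Matrix ι ι F) *ᵥ V ⟨e₁, h.h11, he0⟩) = 0 := by rw [hg]; exact D.sing _
  have h2 : polar Q ((rep g : Matrix ι ι F) *ᵥ V ⟨e₁, h.h11, he0⟩) ((rep g : Matrix ι ι F) *ᵥ v κ) = 0 := by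
    rw [polar_fix (D.fix g)]; exact z_v D h he0 hv _
  have h3 : polar Q (V ⟨e₁, h.h11, he0⟩) (v κ' + a • V ⟨e₁, h.h11, he0⟩) = 0 := by
    rw [polar_add_r D.hQ, polar_smul_r D.hQ, polar_self_sing D.hQ (D.sing _), z_v D h he0 hv, mul_zero, add_zero]
  rw [sg_conj D.hQ (D.fix g) _ _ h1 h2, sg_congr D.hQ h1 h2 (D.sing _) h3 hg hk, sg_add_self D.hQ]

theorem T_comm_U {u : SU 3 E q} (hu : u ∈ Stab q e₁) (κ : E) :
    rep u * T D h he0 hv κ * (rep u)⁻¹ = T D h he0 hv κ := by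
  obtain ⟨a, ha⟩ := u_v D h he0 hv hu κ
  exact T_conj D h he0 hv (u_z D h he0 hu) ha

theorem T_tor {l : E} (hl : l * l ^ q = 1) (κ : E) :
    rep (tor D.hE hl h.h22) * T D h he0 hv κ * (rep (tor D.hE hl h.h22))⁻¹ = T D h he0 hv (l ^ 3 * κ) := by
  refine T_conj D h he0 hv (c_z D h he0 hl) (a := 0) ?_
  rw [c_v D h hv hl, zero_smul, add_zero]

/-- the commutator with the torus -/
theorem T_comm_tor {l : E} (hl : l * l ^ q = 1) (κ : E) :
    T D h he0 hv κ * rep (tor D.hE hl h.h22) * (T D h he0 hv κ)⁻¹ * (rep (tor D.hE hl h.h22))⁻¹ =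
      T D h he0 hv ((1 - l ^ 3) * κ) := by
  have e : T D h he0 hv κ * rep (tor D.hE hl h.h22) * (T D h he0 hv κ)⁻¹ * (rep (tor D.hE hl h.h22))⁻¹ =
      T D h he0 hv κ * (rep (tor D.hE hl h.h22) * (T D h he0 hv κ)⁻¹ * (rep (tor D.hE hl h.h22))⁻¹) := by group
  rw [e, T_inv, T_tor, T_mul]
  congr 1
  ring

include D h in
/-- nontriviality -/
theorem T_ne {κ : E} (h1 : T D h he0 hv κ = 1) : κ = 0 := by
  have hE := D.hE
  have h3ne : e₃ ≠ 0 := by
    rintro rfl
    have := h.h13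
    rw [herm_zero_right hE] at this
    exact zero_ne_one this
  set x := V ⟨e₃, h.h33, h3ne⟩ with hx
  set z := V ⟨e₁, h.h11, he0⟩ with hz
  have h2 : (T D h he0 hv κ : Matrix ι ι F) *ᵥ x = x := by rw [h1, Units.val_one, Matrix.one_mulVec]
  unfold T at h2
  rw [sg_apply] at h2
  have hzx : i (polar Q z x) = i c := by
    rw [hz, hx, D.gram]
    change i c * j (hermForm 3 E q e₃ e₁ * hermForm 3 E q e₃ e₁ ^ q) = i c
    rw [h.h31 hE, one_pow, mul_one, map_one, mul_one]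
  have hzx0 : polar Q z x ≠ 0 := by
    intro h0
    rw [h0, map_zero] at hzx
    exact D.hc ((map_eq_zero i).1 hzx.symm)
  -- `v κ` is a multiple of `z`
  obtain ⟨b, hb⟩ : ∃ b : F, v κ = b • z := by
    refine ⟨(polar Q z x)⁻¹ * (polar Q (v κ) x + Q (v κ) * polar Q z x), ?_⟩
    have h4 : polar Q z x • v κ = (polar Q (v κ) x + Q (v κ) * polar Q z x) • z := by
      have h5 : x + polar Q z x • v κ - polar Q (v κ) x • z - (Q (v κ) * polar Q z x) • z - x = 0 := by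
        rw [h2, sub_self]
      have h6 : x + polar Q z x • v κ - polar Q (v κ) x • z - (Q (v κ) * polar Q z x) • z - x =
          polar Q z x • v κ - (polar Q (v κ) x + Q (v κ) * polar Q z x) • z := by module
      rw [h6] at h5
      exact sub_eq_zero.1 h5
    rw [← smul_smul, ← h4, smul_smul, inv_mul_cancel₀ hzx0, one_smul]
  have hic : i c ≠ 0 := (map_ne_zero i).2 D.hc
  have h4 : ∀ w : Iso q E, j (tv q e₁ e₂ κ w.1) = i b * j (hermForm 3 E q w.1 e₁ * hermForm 3 E q w.1 e₁ ^ q) := by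
    intro w
    have h5 := hv κ w
    rw [hb, polar_smul_l D.hQ, map_mul, hz, D.gram] at h5
    apply mul_left_cancel₀ hic
    rw [← h5]
    ring
  have hb0 : i b = 0 := by
    have h5 := h4 ⟨e₃, h.h33, h3ne⟩
    unfold tv at h5
    simp only [h.h31 hE, h.h32 hE, mul_zero, zero_pow_q hE, add_zero, map_zero, one_pow, mul_one, map_one] at h5
    exact h5.symm
  apply eq_zero_of_forall_trace hE
  intro y
  obtain ⟨y', hy'⟩ := exists_root hE y
  have hw : hermForm 3 E q (y' • e₁ + y • e₂ + (1 : E) • e₃) (y' • e₁ + y • e₂ + (1 : E) • e₃) = 0 := by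
    rw [h.herm_comb hE, one_pow]
    linear_combination hy'
  have h5 := h4 ⟨y' • e₁ + y • e₂ + (1 : E) • e₃, hw, h.comb_ne_zero hE one_ne_zero⟩
  rw [hb0, zero_mul, map_eq_zero] at h5
  have h6 : hermForm 3 E q (y' • e₁ + y • e₂ + (1 : E) • e₃) e₁ = 1 := by
    rw [herm_add_left, herm_add_left, herm_smul_left, herm_smul_left, herm_smul_left, h.h11, h.h21 hE, h.h31 hE]
    ring
  have h7 : hermForm 3 E q (y' • e₁ + y • e₂ + (1 : E) • e₃) e₂ = y := by
    rw [herm_add_left, herm_add_left, herm_smul_left, herm_smul_left, herm_smul_left, h.h12, h.h22, h.h32 hE]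
    ring
  unfold tv at h5
  rw [h6, h7, one_pow, mul_one, mul_comm κ y] at h5
  exact h5

end Dat

/-! ### the kernel -/

/-- an element stabilising all the isotropic lines is scalar -/
theorem scal_of_lines (hE : Fintype.card E = q ^ 2) {e₁ e₂ e₃ : Fin 3 → E} (h : Fr q e₁ e₂ e₃) {g : SU 3 E q}
    (hg : ∀ w, hermForm 3 E q w w = 0 → ∃ t : E, act g w = t • w) : ∃ t : E, t ^ 3 = 1 ∧ ∀ w, act g w = t • w := by
  obtain ⟨y, hy⟩ := exists_root hE (1 : E)
  rw [one_pow, mul_one] at hy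
  have hy0 : y ≠ 0 := by
    rintro rfl
    rw [zero_pow_q hE, add_zero, zero_add] at hy
    exact one_ne_zero hy
  obtain ⟨t₁, ht₁⟩ := hg e₁ h.h11
  obtain ⟨t₃, ht₃⟩ := hg e₃ h.h33
  obtain ⟨t, ht⟩ := hg (y • e₁ + (1 : E) • e₂ + (1 : E) • e₃) (by
    rw [h.herm_comb hE, one_pow, one_mul]
    linear_combination hy)
  have h13 := h.h13
  rw [← herm_act g, ht₁, ht₃, herm_smul_left, herm_smul_right, h.h13] at h13
  have ht₁0 : t₁ ≠ 0 := by
    rintro rfl
    rw [zero_mul] at h13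
    exact zero_ne_one h13
  have ht₃0 : t₃ ≠ 0 := by
    rintro rfl
    rw [zero_pow_q hE] at h13
    simp at h13
  have h2 : act g e₂ = t • e₂ + (y * (t - t₁)) • e₁ + (t - t₃) • e₃ := by
    have e1 : act g (y • e₁ + (1 : E) • e₂ + (1 : E) • e₃) = y • act g e₁ + act g e₂ + act g e₃ := by
      rw [act_add, act_add, act_smul, act_smul, act_smul, one_smul, one_smul]
    rw [ht, ht₁, ht₃] at e1
    have e2 : act g e₂ = (y • t₁ • e₁ + act g e₂ + t₃ • e₃) - y • t₁ • e₁ - t₃ • e₃ := by module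
    rw [e2, ← e1]
    module
  have h21 := h.h21 hE
  rw [← herm_act g, ht₁, h2, herm_smul_right, herm_add_left, herm_add_left, herm_smul_left, herm_smul_left,
    herm_smul_left, h.h21 hE, h.h11, h.h31 hE] at h21
  have h23 := h.h23
  rw [← herm_act g, ht₃, h2, herm_smul_right, herm_add_left, herm_add_left, herm_smul_left, herm_smul_left,
    herm_smul_left, h.h23, h.h13, h.h33] at h23
  have k1 : t = t₃ := by
    have h5 : t₁ ^ q * (t - t₃) = 0 := by linear_combination h21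
    exact sub_eq_zero.1 ((mul_eq_zero.1 h5).resolve_left (pow_ne_zero _ ht₁0))
  have k2 : t = t₁ := by
    have h5 : t₃ ^ q * (y * (t - t₁)) = 0 := by linear_combination h23
    exact sub_eq_zero.1 ((mul_eq_zero.1 ((mul_eq_zero.1 h5).resolve_left (pow_ne_zero _ ht₃0))).resolve_left hy0)
  have hall : ∀ w, act g w = t • w := by
    intro w
    obtain ⟨a, b, c, rfl⟩ := h.exists_comb hE w
    rw [act_add, act_add, act_smul, act_smul, act_smul, ht₁, ht₃, h2, ← k1, ← k2, sub_self, mul_zero, zero_smul,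
      zero_smul, add_zero, add_zero]
    module
  refine ⟨t, ?_, hall⟩
  have hm : mat g = t • (1 : Matrix (Fin 3) (Fin 3) E) := by
    apply Matrix.ext_of_mulVec_single
    intro k
    rw [← act_def, hall, Matrix.smul_mulVec, Matrix.one_mulVec]
  have hd := det_mat g
  rw [hm, Matrix.det_smul, Matrix.det_one, mul_one, Fintype.card_fin] at hd
  exact hd

theorem central_of_scal {g : SU 3 E q} {t : E} (ht : t ^ 3 = 1) (hg : ∀ w, act g w = t • w) :
    (∀ k, k * g = g * k) ∧ g ^ 3 = 1 := by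
  constructor
  · intro k
    apply ext_act
    intro w
    rw [act_mul, act_mul, hg, hg, act_smul]
  · apply ext_act
    intro w
    have h3 : g ^ 3 = g * (g * g) := by rw [pow_succ, pow_two, mul_assoc]
    rw [h3, act_mul, act_mul, hg, hg, hg, act_one, smul_smul, smul_smul]
    have : t * t * t = t ^ 3 := by ring
    rw [this, ht, one_smul]

section final

variable {rep : SU 3 E q →* GL ι F} {Q : (ι → F) → F} {V : Iso q E → ι → F} {c : F} {i : F →+* K} {j : E →+* K}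
  (D : Dat rep Q V c i j) {e₁ e₂ e₃ : Fin 3 → E} (h : Fr q e₁ e₂ e₃) (he0 : e₁ ≠ 0)

include D h in
/-- the kernel modulo scalars -/
theorem ker_su {g : SU 3 E q} (hg : rep g ∈ scalars ι F) : (∀ k, k * g = g * k) ∧ g ^ 3 = 1 := by
  have hE := D.hE
  obtain ⟨l, hl⟩ := (mem_scalars_iff _).1 hg
  obtain ⟨t, ht, h1⟩ := scal_of_lines hE h (g := g) (fun w hw => by
    by_cases hw0 : w = 0
    · exact ⟨0, by rw [hw0, act_zero, zero_smul]⟩
    · apply eq_smul_of_orth hE hw hw0 (by rw [herm_act, hw])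
      have h2 := D.actV g ⟨w, hw, hw0⟩
      rw [hl, Matrix.smul_mulVec, Matrix.one_mulVec] at h2
      have h3 := D.gram (actIso g ⟨w, hw, hw0⟩) ⟨w, hw, hw0⟩
      rw [← h2, polar_smul_l D.hQ, polar_self_sing D.hQ (D.sing _), mul_zero, map_zero] at h3
      have h4 := ((mul_eq_zero.1 h3.symm).resolve_left ((map_ne_zero i).2 D.hc))
      rw [map_eq_zero, norm_eq_zero hE] at h4
      exact herm_eq_zero_swap hE h4)
  exact central_of_scal ht h1

include D h he0 in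
/-- **`q ≥ 3`, `p ≠ 3`: no EP pair.** -/
theorem adj_su {Qg : Type*} [Group Qg] [Finite Qg] {A : Subgroup Qg} {Γ : Subgroup (MulAut Qg)} [Finite F]
    (hE : EPT A Γ) (m : Model Qg (omegaGL Q)) (hn : 7 ≤ Fintype.card ι)
    {p : ℕ} [hp : Fact p.Prime] [CharP E p] (hp3 : p ≠ 3) (hq : 3 ≤ q) {P : Subgroup (GL ι F)} (hr : rep.range = P)
    (hP : IsResidualCore (m.hat A) P) : False := by
  have hEq := D.hE
  have hcv := D.exists_v h
  choose v hv using hcv
  change ∀ κ, Rp Q V c i j (v κ) (tv q e₁ e₂ κ) at hv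
  -- the torus
  obtain ⟨l, hlp⟩ := exists_zeta hEq
  have hl : l * l ^ q = 1 := by rw [mul_comm, ← pow_succ]; exact hlp.pow_eq_one
  have hl3 : 1 - l ^ 3 ≠ 0 := by
    intro h1
    have h2 : l ^ 3 = 1 := (sub_eq_zero.1 h1).symm
    have h3 := Nat.le_of_dvd (by norm_num) ((hlp.pow_eq_one_iff_dvd 3).1 h2)
    omega
  set s := tor hEq hl h.h22 with hs
  have hrP : ∀ g, rep g ∈ P := fun g => by rw [← hr]; exact ⟨g, rfl⟩
  have hrA : ∀ g, rep g ∈ m.hat A := fun g => hP.le (hrP g)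
  have hz : ∀ z, rep z ∈ scalars ι F → (∀ g, g * z = z * g) ∧ z ^ 3 = 1 := fun z hz => ker_su D h hz
  have hUp := isPGroup_Stab (p := p) hEq h.h11 he0
  have hi := stab_index (p := p) hEq h.h11 he0
  -- `s` normalises `U`
  have hsU : ∀ k ∈ Stab q e₁, s * k * s⁻¹ ∈ Stab q e₁ := by
    intro k hk
    have hl0 := Dat.l_ne hl
    have h1 : act s e₁ = l • e₁ := Dat.act_tor_one h hl hEq
    have h2 : act s⁻¹ e₁ = l⁻¹ • e₁ := by
      have h3 := act_inv_act s e₁
      rw [h1, act_smul] at h3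
      calc act s⁻¹ e₁ = l⁻¹ • (l • act s⁻¹ e₁) := by rw [smul_smul, inv_mul_cancel₀ hl0, one_smul]
        _ = l⁻¹ • e₁ := by rw [h3]
    rw [mem_Stab, act_mul, act_mul, h2, act_smul, mem_Stab.1 hk, act_smul, h1, smul_smul, inv_mul_cancel₀ hl0, one_smul]
  -- CL
  have hT1 : ∀ κ, Dat.T D h he0 hv κ ∈ m.hat A := by
    intro κ
    have h1 := cl_gl m hE hP hr hp.out hp3 hUp hi hz (C := {rep s})
      (fun _ e => by rw [Set.mem_singleton_iff] at e; rw [e]; exact hrA s)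
      (fun Dd hD hne => by
        rw [core_SU hEq h.h11 he0 hD hne]
        refine ⟨stab_ne_bot hEq h.h11 he0, fun _ e k hk => ?_⟩
        rw [Set.mem_singleton_iff] at e
        exact ⟨s * k * s⁻¹, hsU k hk, by rw [e, map_mul, map_mul, map_inv]⟩)
      (t := Dat.T D h he0 hv ((1 - l ^ 3)⁻¹ * κ)) (sg_mem D.hQ hn _ _) (fun u hu => ⟨u, hu, by
        have h2 := Dat.T_comm_U D h he0 hv hu ((1 - l ^ 3)⁻¹ * κ)
        rw [mul_inv_eq_iff_eq_mul] at h2 ⊢
        exact h2.symm⟩) (Set.mem_singleton (rep s))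
    have h2 := (m.hat A).mul_mem h1 ((m.hat A).inv_mem (hrA s))
    rw [Dat.T_comm_tor, ← mul_assoc, mul_inv_cancel₀ hl3, one_mul] at h2
    exact h2
  have hT2 : ∀ κ, Dat.T D h he0 hv κ ∈ P := by
    intro κ
    have h1 := P.mul_mem (hP.normal _ (hT1 ((1 - l ^ 3)⁻¹ * κ)) _ (hrP s)) (P.inv_mem (hrP s))
    rw [Dat.T_comm_tor, ← mul_assoc, mul_inv_cancel₀ hl3, one_mul] at h1
    exact h1
  -- `T 1 ∈ rep U`
  have hFp : ∀ κ, Dat.T D h he0 hv κ ^ p = 1 := by
    intro κ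
    rw [Dat.T_pow, nsmul_eq_mul, CharP.cast_eq_zero, zero_mul, Dat.T_zero]
  let rp : SU 3 E q →* P := rep.codRestrict P hrP
  have hrs : Function.Surjective rp := by
    rintro ⟨x, hx⟩
    rw [← hr] at hx
    obtain ⟨g, rfl⟩ := hx
    exact ⟨g, rfl⟩
  have hPfin : Finite P := Finite.of_surjective rp hrs
  have hx := mem_of_comm_sylow (G := P) (p := p) (U := (Stab q e₁).map rp) (hUp.map rp)
    (fun h1 => hi (h1.trans (Subgroup.index_map_dvd _ hrs))) (x := ⟨Dat.T D h he0 hv 1, hT2 1⟩)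
    (Subtype.ext (hFp 1)) (by
      rintro _ ⟨u, hu, rfl⟩
      apply Subtype.ext
      have h2 := Dat.T_comm_U D h he0 hv hu 1
      rw [mul_inv_eq_iff_eq_mul] at h2
      exact h2.symm)
  obtain ⟨u, hu, hu1⟩ := hx
  have hu2 : rep u = Dat.T D h he0 hv 1 := congrArg Subtype.val hu1
  -- `u` is central in `U`
  have hU1 : ∀ k ∈ Stab q e₁, rep k = 1 → k = 1 := by
    intro k hk h1
    obtain ⟨-, h2⟩ := hz k (by rw [h1]; exact (scalars ι F).one_mem)
    obtain ⟨n, hn'⟩ := IsPGroup.iff_card.1 hUp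
    have h3 : k ^ p ^ n = 1 := by
      rw [← hn']
      exact congrArg Subtype.val (pow_card_eq_one' (x := (⟨k, hk⟩ : Stab q e₁)))
    have h4 := Nat.dvd_gcd (orderOf_dvd_of_pow_eq_one h3) (orderOf_dvd_of_pow_eq_one h2)
    have h5 : Nat.gcd (p ^ n) 3 = 1 := by
      apply Nat.Coprime.pow_left
      exact (Nat.coprime_primes hp.out Nat.prime_three).2 hp3
    rw [h5, Nat.dvd_one, orderOf_eq_one_iff] at h4
    exact h4
  have huc : ∀ k ∈ Stab q e₁, k * u = u * k := by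
    intro k hk
    have h1 := hU1 (k * u * k⁻¹ * u⁻¹) ((Stab q e₁).mul_mem ((Stab q e₁).mul_mem ((Stab q e₁).mul_mem hk hu)
      ((Stab q e₁).inv_mem hk)) ((Stab q e₁).inv_mem hu)) (by
        rw [map_mul, map_mul, map_mul, map_inv, map_inv, hu2, Dat.T_comm_U D h he0 hv hk, mul_inv_cancel])
    rw [mul_inv_eq_one, mul_inv_eq_iff_eq_mul] at h1
    exact h1
  obtain ⟨x, μ, hx, hus⟩ := stab_siegel hEq h he0 hu
  rw [hus] at huc
  obtain rfl := central_siegel hEq h hx huc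
  -- `u` commutes with `s`
  have hsu : s * u * s⁻¹ = u := by
    rw [hus, conj_siegel]
    apply ext_act
    intro w
    rw [act_siegel, act_siegel, zero_smul, act_zero, Dat.act_tor_one h hl hEq, herm_smul_right, herm_zero_right hEq,
      smul_zero, smul_zero, sub_zero, sub_zero, smul_smul]
    congr 2
    linear_combination (μ * hermForm 3 E q w e₁) * hl
  have h1 := Dat.T_tor D h he0 hv hl 1
  rw [← hu2, ← hs, ← map_mul, ← map_inv, ← map_mul, hsu, hu2, mul_one] at h1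
  have h2 : Dat.T D h he0 hv (1 - l ^ 3) = 1 := by
    rw [sub_eq_add_neg, ← Dat.T_mul, ← Dat.T_inv, ← h1, mul_inv_cancel]
  exact hl3 (Dat.T_ne D h he0 hv h2)

end final

end Cfsg.Agent.H682.EP.SUn
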