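import Cfsg.Agent.H929.UThreePlus
import Cfsg.Agent.LieClassical.HermGen
import Cfsg.Agent.H682.EP.GLForm
import Cfsg.Agent.H682.EP.Sg

/-!
# S3499, own characteristic: `PSU(3, q)` in dimension 8, the vectors (helper682)
-/

set_option autoImplicit false
set_option linter.unusedSectionVars false
set_option linter.unusedVariables false
set_option linter.style.haveILetI false

namespace Cfsg.Agent.H682.EP.SUn

open Cfsg Cfsg.Geo Cfsg.Agent.LieClassical.HermSiegel Cfsg.Agent.LieClassical.HermBasic Matrix Cfsg.Agent.H906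
  Cfsg.Agent.H915.LD Cfsg.Agent.H905.Md Cfsg.Agent.H914 Cfsg.Agent.H929.U3

universe u

section Data

variable {F : Type u} [Field F] [Finite F] {ι : Type} [Fintype ι] [DecidableEq ι] {P : Subgroup (GL ι F)}
  (p : ℕ) [hp : Fact p.Prime] [hFp : CharP F p] {E : Type} [Field E] [Fintype E] [hEp : CharP E p]

include p hp hFp hEp in
/-- **the Gram matrix of the rational vectors, with the action** (after `SU3Data.polar_rat`) -/
theorem rat_model {q : ℕ} (hC : Core P) (hsd : SD P) (hq4 : 4 ≤ q) (hE : Fintype.card E = q ^ 2)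
    {e : Soc P ≃* PSU 3 E q} (hn : Fintype.card ι ≤ 12) (D : SU3Data P p E q e) {Q : (ι → F) → F}
    (hQ : IsNondegenerateQuadraticForm Q) (hfix : FixesQuadForm (matrixSet P) Q) :
    ∃ (V : Iso q E → ι → F) (c : F), c ≠ 0 ∧ (∀ w, Q (V w) = 0) ∧ (∀ u w,
      algebraMap F (AlgebraicClosure F) (QuadraticMap.polar Q (V u) (V w)) =
        algebraMap F (AlgebraicClosure F) c * D.j (hermForm 3 E q w.1 u.1) ^ (1 + q)) ∧
      ∀ g w, (D.rep g : Matrix ι ι F) *ᵥ V w = V (actIso g w) := by
  classical
  have hne := hC.nonempty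
  have hq3 : 3 ≤ q := by omega
  have hchar : CharP (AlgebraicClosure F) p := charP_of_injective_algebraMap (algebraMap F _).injective p
  have hb := (D.sd_iff p hC hq3 hE hn).1 hsd
  have hn3 : Fintype.card ι < q ^ 3 := by
    have : 3 ^ 3 ≤ q ^ 3 := Nat.pow_le_pow_left hq3 3
    omega
  obtain ⟨lam, V, hlam, hV⟩ := D.exists_rat p hC hsd hq3 hE hn
  set f := QuadraticMap.polar Q with hf
  have hfb : IsBilinearForm f := hQ.polar_bilinear
  have hff : FixesForm (matrixSet P) f := by
    intro s hs v w
    rw [hf]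
    unfold QuadraticMap.polar
    rw [← Matrix.mulVec_add, hfix s hs, hfix s hs, hfix s hs]
  have hJ0 := det_gram_ne_zero (IsSesq.of_bilinear hfb) hQ.nondegenerate
  have hJ : ∀ g ∈ P, (g : Matrix ι ι F)ᵀ * gramMatrix f * (g : Matrix ι ι F) = gramMatrix f :=
    fun g hg => gram_fix hfb hff hg
  obtain ⟨c, hc⟩ := D.gram p hE hn3 (J := (gramMatrix f).map (algebraMap F (AlgebraicClosure F))) (D.inv_map _ hJ)
  -- the form over the closure
  have hfe : ∀ x y : ι → F, algebraMap F (AlgebraicClosure F) (f x y) =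
      (fun i => algebraMap F (AlgebraicClosure F) (x i)) ⬝ᵥ
        ((gramMatrix f).map (algebraMap F (AlgebraicClosure F)) *ᵥ
          (fun i => algebraMap F (AlgebraicClosure F) (y i))) := by
    intro x y
    rw [form_eq_gram hfb]
    simp only [dotProduct, Matrix.mulVec, map_sum, map_mul, Matrix.map_apply]
  have hfV : ∀ u w, algebraMap F (AlgebraicClosure F) (f (V u) (V w)) =
      (lam * lam * c) * D.j (hermForm 3 E q w.1 u.1) ^ (1 + q) := by
    intro u w
    rw [hfe, hV, hV, Matrix.mulVec_smul, hc, smul_dotProduct, dotProduct_smul, dotProduct_smul, dotProduct_comm,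
      D.ker.coef, hb]
    simp only [smul_eq_mul]
    ring
  obtain ⟨e₂, e₃, hfr⟩ := exists_fr hE D.iso D.ne
  have h3 : e₃ ≠ 0 := by
    rintro rfl
    have := hfr.h13
    rw [herm_zero_right hE] at this
    exact zero_ne_one this
  have hc1 : algebraMap F (AlgebraicClosure F) (f (V ⟨D.e₀, D.iso, D.ne⟩) (V ⟨e₃, hfr.h33, h3⟩)) = lam * lam * c := by
    rw [hfV, hfr.h31 hE, map_one, one_pow, mul_one]
  have hc0 : c ≠ 0 := by
    rintro rfl
    have h6 : ∀ x, (gramMatrix f).map (algebraMap F (AlgebraicClosure F)) *ᵥ x = 0 := by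
      intro x
      have hx : x ∈ Submodule.span (AlgebraicClosure F) (Set.range D.V) := by rw [D.ker.spanR]; trivial
      induction hx using Submodule.span_induction with
      | mem x hx =>
        obtain ⟨w, rfl⟩ := hx
        rw [hc, zero_smul]
      | zero => rw [Matrix.mulVec_zero]
      | add x y _ _ hx hy => rw [Matrix.mulVec_add, hx, hy, add_zero]
      | smul c x _ hx => rw [Matrix.mulVec_smul, hx, smul_zero]
    have h7 : ((gramMatrix f).map (algebraMap F (AlgebraicClosure F))).det ≠ 0 := by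
      rw [← RingHom.mapMatrix_apply, ← RingHom.map_det]
      exact (map_ne_zero _).2 hJ0
    apply h7
    have h8 : (gramMatrix f).map (algebraMap F (AlgebraicClosure F)) = 0 := by
      ext a b
      have := congrFun (h6 (Pi.single b 1)) a
      rwa [Matrix.mulVec_single_one, Matrix.col_apply] at this
    rw [h8, Matrix.det_zero]
  have hact : ∀ g w, (D.rep g : Matrix ι ι F) *ᵥ V w = V (actIso g w) := by
    intro g w
    funext i
    apply (algebraMap F (AlgebraicClosure F)).injective
    have h8 := congrFun (hV (actIso g w)) i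
    rw [h8, D.V_act hE, Pi.smul_apply, ← Pi.smul_apply, ← Matrix.mulVec_smul, ← hV]
    simp only [Matrix.mulVec, dotProduct, map_sum, map_mul, acRep_apply, Matrix.map_apply]
  refine ⟨V, f (V ⟨D.e₀, D.iso, D.ne⟩) (V ⟨e₃, hfr.h33, h3⟩), ?_, ?_, ?_, hact⟩
  · intro h0
    rw [h0, map_zero] at hc1
    exact mul_ne_zero (mul_ne_zero hlam hlam) hc0 hc1.symm
  · intro w
    -- a generator of the multiplicative group
    obtain ⟨t, ht⟩ := IsCyclic.exists_generator (α := Eˣ)
    have hord : orderOf t = q ^ 2 - 1 := by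
      rw [orderOf_eq_card_of_forall_mem_zpowers ht, Nat.card_eq_fintype_card, Fintype.card_units, hE]
    have ht0 : (t : E) ≠ 0 := t.ne_zero
    let tw : Iso q E := ⟨(t : E) • w.1, by rw [herm_smul_left, herm_smul_right, w.2.1, mul_zero, mul_zero],
      smul_ne_zero ht0 w.2.2⟩
    -- `V (t w) = N (t) V w`
    have h4 : D.V tw = D.j (t : E) ^ (1 + q) • D.V w := by
      have h5 : ∀ y : ι → AlgebraicClosure F, y ⬝ᵥ (D.V tw - D.j (t : E) ^ (1 + q) • D.V w) = 0 := by
        intro y
        have hy : y ∈ Submodule.span (AlgebraicClosure F) (Set.range D.Φ) := by rw [D.ker.spanL]; trivial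
        induction hy using Submodule.span_induction with
        | mem y hy =>
          obtain ⟨u, rfl⟩ := hy
          rw [dotProduct_sub, dotProduct_smul, D.ker.coef, D.ker.coef, hb]
          change D.j (hermForm 3 E q u.1 ((t : E) • w.1)) ^ (1 + q) - _ = 0
          rw [herm_smul_right, smul_eq_mul, ← mul_pow, ← map_mul, ← map_pow, ← map_pow, mul_pow, mul_pow, sub_eq_zero]
          congr 2
          rw [pow_add, pow_add, pow_one, pow_one, pow_q_pow_q hE, mul_comm]
        | zero => rw [zero_dotProduct]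
        | add x y _ _ hx hy => rw [add_dotProduct, hx, hy, add_zero]
        | smul c x _ hx => rw [smul_dotProduct, hx, smul_zero]
      funext i
      have h6 := h5 (Pi.single i 1)
      rw [single_dotProduct, one_mul, Pi.sub_apply, sub_eq_zero] at h6
      exact h6
    -- both are in the same orbit
    obtain ⟨g, hg⟩ : ∃ g : SU 3 E q, actIso g w = tw := by
      obtain ⟨g, hg⟩ := exists_act hE w.2.1 w.2.2 tw.2.1 tw.2.2
      exact ⟨g, Subtype.ext hg⟩
    have hgP : D.rep g ∈ P := D.range_rep.le ⟨g, rfl⟩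
    have h7 : (D.rep g : Matrix ι ι F) *ᵥ V w = V tw := by rw [hact, hg]
    -- `N (t)` is rational
    obtain ⟨n, hn'⟩ : ∃ n : F, algebraMap F (AlgebraicClosure F) n = D.j (t : E) ^ (1 + q) := by
      have : Fintype F := Fintype.ofFinite F
      have hcard := card_psu3_sd p hC hsd hq3 hE e hn
      rw [Nat.card_eq_fintype_card] at hcard
      apply exists_alg
      rw [hcard, ← map_pow, ← map_pow]
      congr 1
      have h9 : (t : E) ^ (q ^ 2) = t := by rw [← hE, FiniteField.pow_card]
      rw [← pow_mul, add_mul, one_mul, ← pow_two, pow_add, h9, pow_add, pow_one, mul_comm]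
    have h8 : V tw = n • V w := by
      funext i
      apply (algebraMap F (AlgebraicClosure F)).injective
      have h9 := congrFun (hV tw) i
      have h10 := congrFun (hV w) i
      rw [h9, h4, Pi.smul_apply, Pi.smul_apply, Pi.smul_apply, smul_eq_mul, smul_eq_mul, smul_eq_mul, map_mul, hn', h10,
        Pi.smul_apply, smul_eq_mul]
      ring
    have h9 := hfix _ ⟨D.rep g, hgP, rfl⟩ (V w)
    rw [h7, h8, hQ.smul] at h9
    by_contra h0
    have h10 : n ^ 2 = 1 := by
      have h11 : (n ^ 2 - 1) * Q (V w) = 0 := by linear_combination h9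
      exact sub_eq_zero.1 ((mul_eq_zero.1 h11).resolve_right h0)
    have h11 : t ^ ((1 + q) * 2) = 1 := by
      apply Units.ext
      rw [Units.val_pow_eq_pow_val, Units.val_one]
      apply D.j.injective
      rw [map_one, pow_mul, map_pow, map_pow, ← hn', ← map_pow, h10, map_one]
    have h12 := orderOf_dvd_of_pow_eq_one h11
    have h13 : q ^ 2 - 1 = (1 + q) * (q - 1) := by
      obtain ⟨r, rfl⟩ : ∃ r, q = r + 1 := ⟨q - 1, by omega⟩
      rw [Nat.add_sub_cancel]
      have : (r + 1) ^ 2 = (1 + (r + 1)) * r + 1 := by ring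
      rw [this, Nat.add_sub_cancel]
    rw [hord, h13] at h12
    have h14 : q - 1 ∣ 2 := Nat.dvd_of_mul_dvd_mul_left (by omega) h12
    have := Nat.le_of_dvd (by norm_num) h14
    omega
  · intro u w
    rw [hfV, hc1]

end Data

end Cfsg.Agent.H682.EP.SUn
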