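import Cfsg.Agent.H682.EP.SUMain
import Cfsg.Agent.H879.Nine.Ctx

/-!
# S3499, own characteristic: socle `PSU(3, q)` in dimension 8, `p ≠ 3` (helper682)
-/

set_option autoImplicit false

namespace Cfsg.Agent.H682.EP

open Matrix Cfsg Cfsg.Geo QuadraticMap Cfsg.Agent.H284 Cfsg.Agent.H419.EP Cfsg.Agent.H915.LD Cfsg.Agent.H929.U3
open scoped MatrixGroups

/-- **The module of `PSU(3, q)`, `p ≠ 3`, `q ≥ 3`: no EP pair.** -/
theorem adj_psu3 {Q : Type*} [Group Q] [Finite Q] {A : Subgroup Q} {Γ : Subgroup (MulAut Q)}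
    (h : EPT A Γ) {F : Type*} [Field F] [Finite F] {ι : Type} [Fintype ι] [DecidableEq ι] {Qf : (ι → F) → F}
    (m : Model Q (Cfsg.Geo.omegaGL Qf)) (hn : 7 ≤ Fintype.card ι) (hn' : Fintype.card ι ≤ 11)
    (hQ : IsNondegenerateQuadraticForm Qf) {P : Subgroup (GL ι F)} (hP : IsResidualCore (m.hat A) P)
    (p : ℕ) [hp : Fact p.Prime] [CharP F p] (hp3 : p ≠ 3) {E : Type} [Field E] [Fintype E] [CharP E p] {q : ℕ}
    (hE : Fintype.card E = q ^ 2) (hq : 3 ≤ q) (Φ : Soc P ≃* PSU 3 E q) : False := by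
  have hC := core_of_residual hP
  have hfix : FixesQuadForm (matrixSet P) Qf := by
    rintro s ⟨g, hg, rfl⟩ v
    have h1 : g ∈ Cfsg.Geo.omegaGL Qf := m.hat_le A (hP.le hg)
    rw [Cfsg.Agent.H887.OmegaBridge.omegaGL_eq] at h1
    exact Cfsg.Agent.H887.OmegaBridge.mem_isometryGroup.1 (Subgroup.commutator_le_self _ h1) v
  have hsd : SD P := Cfsg.Agent.H879.Nine.sd_of_fixQ ⟨Qf, hQ, hfix⟩
  have hq4 : 4 ≤ q := by
    by_contra hcon
    have hq3 : q = 3 := by omega
    subst hq3
    obtain ⟨n, hpr, hn3⟩ := FiniteField.card E p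
    rw [hE] at hn3
    have h1 : p ∣ 3 ^ 2 := by
      rw [hn3]
      exact dvd_pow_self p n.ne_zero
    exact hp3 ((Nat.prime_dvd_prime_iff_eq hpr Nat.prime_three).1 (hpr.dvd_of_dvd_pow h1))
  have hn12 : Fintype.card ι ≤ 12 := by omega
  obtain ⟨D0⟩ := core_model p hC hq hE Φ hn12
  obtain ⟨V, c, hc, hsing, hgram, hact⟩ := SUn.rat_model p hC hsd hq4 hE hn12 D0 hQ hfix
  obtain ⟨e₂, e₃, hfr⟩ := exists_fr hE D0.iso D0.ne
  have h3 : e₃ ≠ 0 := by
    rintro rfl
    have := hfr.h13
    rw [Cfsg.Agent.LieClassical.HermBasic.herm_zero_right hE] at this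
    exact zero_ne_one this
  have hspan : Submodule.span F (Set.range V) = ⊤ := by
    rcases hC.absIrred.1 (Submodule.span F (Set.range V)) (by
      rintro s ⟨g, hg, rfl⟩ _ ⟨v, hv, rfl⟩
      rw [SetLike.mem_coe, ← D0.range_rep] at hg
      obtain ⟨g, rfl⟩ := hg
      rw [Matrix.toLin'_apply]
      induction hv using Submodule.span_induction with
      | mem x hx =>
        obtain ⟨w, rfl⟩ := hx
        change (D0.rep g : Matrix ι ι F) *ᵥ V w ∈ _
        rw [hact]
        exact Submodule.subset_span ⟨_, rfl⟩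
      | zero => rw [Matrix.mulVec_zero]; exact Submodule.zero_mem _
      | add x y _ _ hx hy => rw [Matrix.mulVec_add]; exact Submodule.add_mem _ hx hy
      | smul a x _ hx => rw [Matrix.mulVec_smul]; exact Submodule.smul_mem _ _ hx) with h1 | h1
    · exfalso
      have h2 : V ⟨e₃, hfr.h33, h3⟩ = 0 := by
        have : V ⟨e₃, hfr.h33, h3⟩ ∈ Submodule.span F (Set.range V) := Submodule.subset_span ⟨_, rfl⟩
        rw [h1, Submodule.mem_bot] at this
        exact this
      have h4 := hgram ⟨D0.e₀, D0.iso, D0.ne⟩ ⟨e₃, hfr.h33, h3⟩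
      have h5 : polar Qf (V ⟨D0.e₀, D0.iso, D0.ne⟩) 0 = 0 := by
        have := hQ.polar_bilinear.smul_right 0 (V ⟨D0.e₀, D0.iso, D0.ne⟩) 0
        rw [zero_smul, zero_mul] at this
        exact this
      rw [h2, h5, map_zero] at h4
      change 0 = algebraMap F (AlgebraicClosure F) c * D0.j (hermForm 3 E q e₃ D0.e₀) ^ (1 + q) at h4
      rw [hfr.h31 hE, map_one, one_pow, mul_one] at h4
      exact hc ((map_eq_zero _).1 h4.symm)
    · exact h1
  have hcard := card_psu3_sd p hC hsd hq hE Φ hn12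
  have D : SUn.Dat D0.rep Qf V c (algebraMap F (AlgebraicClosure F)) D0.j :=
    { hE := hE
      rat := by
        intro x hx
        have : Fintype F := Fintype.ofFinite F
        rw [Nat.card_eq_fintype_card] at hcard
        exact exists_alg _ (by rw [hcard]; exact hx)
      hQ := hQ
      hc := hc
      sing := hsing
      gram := by
        intro u w
        rw [hgram, pow_add, pow_one, map_mul, map_pow]
      actV := hact
      sep := by
        intro x hx
        by_contra hx0
        obtain ⟨-, y, hy⟩ := hQ.nondegenerate x hx0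
        apply hy
        have hyV : y ∈ Submodule.span F (Set.range V) := by rw [hspan]; trivial
        clear hy
        induction hyV using Submodule.span_induction with
        | mem y hy =>
          obtain ⟨w, rfl⟩ := hy
          exact hx w
        | zero =>
          have := hQ.polar_bilinear.smul_right 0 x 0
          rw [zero_smul, zero_mul] at this
          exact this
        | add y y' _ _ hy hy' => rw [hQ.polar_bilinear.add_right, hy, hy', add_zero]
        | smul a y _ hy => rw [hQ.polar_bilinear.smul_right, hy, mul_zero]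
      fix := fun g x => hfix _ ⟨D0.rep g, D0.range_rep.le ⟨g, rfl⟩, rfl⟩ x }
  exact SUn.adj_su D hfr D0.ne h m hn (p := p) hp3 hq D0.range_rep hP

end Cfsg.Agent.H682.EP
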