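import Cfsg.Agent.H682.EP.SUGeo
import Cfsg.Agent.H682.EP.SUModel

/-!
# S3499, own characteristic: `PSU(3, q)` in dimension 8, root vectors (helper682)
-/

set_option autoImplicit false
set_option linter.unusedSectionVars false
set_option linter.unusedVariables false

namespace Cfsg.Agent.H682.EP.SUn

open Cfsg Cfsg.Geo Cfsg.Agent.LieClassical.HermSiegel Cfsg.Agent.LieClassical.HermBasic Matrix QuadraticMap
  Cfsg.Agent.H929.U3
open scoped MatrixGroups

variable {F : Type*} [Field F] {ι : Type} [Fintype ι] [DecidableEq ι] {E : Type} [Field E] [Fintype E] {q : ℕ}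
  {K : Type*} [Field K]

/-- the rational model -/
structure Dat (rep : SU 3 E q →* GL ι F) (Q : (ι → F) → F) (V : Iso q E → ι → F) (c : F) (i : F →+* K)
    (j : E →+* K) : Prop where
  hE : Fintype.card E = q ^ 2
  rat : ∀ x : K, x ^ q = x → ∃ y, i y = x
  hQ : IsNondegenerateQuadraticForm Q
  hc : c ≠ 0
  sing : ∀ w, Q (V w) = 0
  gram : ∀ u w : Iso q E, i (polar Q (V u) (V w)) = i c * j (hermForm 3 E q w.1 u.1 * hermForm 3 E q w.1 u.1 ^ q)
  actV : ∀ g w, (rep g : Matrix ι ι F) *ᵥ V w = V (actIso g w)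
  sep : ∀ x, (∀ w, polar Q x (V w) = 0) → x = 0
  fix : ∀ g x, Q ((rep g : Matrix ι ι F) *ᵥ x) = Q x

/-- `x` represents the function `g` -/
def Rp (Q : (ι → F) → F) (V : Iso q E → ι → F) (c : F) (i : F →+* K) (j : E →+* K) (x : ι → F)
    (g : (Fin 3 → E) → E) : Prop := ∀ w : Iso q E, i (polar Q x (V w)) = i c * j (g w.1)

namespace Dat

variable {rep : SU 3 E q →* GL ι F} {Q : (ι → F) → F} {V : Iso q E → ι → F} {c : F} {i : F →+* K} {j : E →+* K}
  (D : Dat rep Q V c i j)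
include D

theorem uniq {x y : ι → F} {g g' : (Fin 3 → E) → E} (hx : Rp Q V c i j x g) (hy : Rp Q V c i j y g')
    (h : ∀ w : Iso q E, g w.1 = g' w.1) : x = y := by
  have h1 : x - y = 0 := by
    apply D.sep
    intro w
    apply i.injective
    have h2 : polar Q (x - y) (V w) = polar Q x (V w) - polar Q y (V w) := by
      have h3 := D.hQ.polar_bilinear.add_left (x - y) y (V w)
      rw [sub_add_cancel] at h3
      rw [h3, add_sub_cancel_right]
    rw [h2, map_sub, hx w, hy w, h w, sub_self, map_zero]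
  exact sub_eq_zero.1 h1

theorem rp_add {x y : ι → F} {g g' : (Fin 3 → E) → E} (hx : Rp Q V c i j x g) (hy : Rp Q V c i j y g') :
    Rp Q V c i j (x + y) (fun w => g w + g' w) := by
  intro w
  rw [D.hQ.polar_bilinear.add_left, map_add, hx w, hy w, map_add]
  ring

theorem rp_smul {x : ι → F} {g : (Fin 3 → E) → E} (hx : Rp Q V c i j x g) {a : F} {b : E} (hab : i a = j b) :
    Rp Q V c i j (a • x) (fun w => b * g w) := by
  intro w
  rw [D.hQ.polar_bilinear.smul_left, map_mul, hx w, hab, map_mul]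
  ring

theorem rp_sub {x y : ι → F} {g g' : (Fin 3 → E) → E} (hx : Rp Q V c i j x g) (hy : Rp Q V c i j y g') :
    Rp Q V c i j (x - y) (fun w => g w - g' w) := by
  have h1 := D.rp_add hx (D.rp_smul hy (a := -1) (b := -1) (by rw [map_neg, map_neg, map_one, map_one]))
  have e1 : x + (-1 : F) • y = x - y := by rw [neg_one_smul, sub_eq_add_neg]
  rw [e1] at h1
  intro w
  rw [h1 w]
  congr 2
  ring

theorem rp_V (u : Iso q E) : Rp Q V c i j (V u) (fun w => hermForm 3 E q w u.1 * hermForm 3 E q w u.1 ^ q) :=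
  fun w => D.gram u w

theorem rp_act {x : ι → F} {g : (Fin 3 → E) → E} (hx : Rp Q V c i j x g) (k : SU 3 E q) :
    Rp Q V c i j ((rep k : Matrix ι ι F) *ᵥ x) (fun w => g (act k⁻¹ w)) := by
  intro w
  have h1 : V w = (rep k : Matrix ι ι F) *ᵥ V (actIso k⁻¹ w) := by
    rw [D.actV]
    congr 1
    exact Subtype.ext (act_act_inv k w.1).symm
  have h2 : polar Q ((rep k : Matrix ι ι F) *ᵥ x) (V w) = polar Q x (V (actIso k⁻¹ w)) := by
    rw [h1]
    exact polar_fix (D.fix k) _ _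
  rw [h2, hx]
  rfl

/-- `e₁` and a frame -/
theorem exists_v {e₁ e₂ e₃ : Fin 3 → E} (h : Fr q e₁ e₂ e₃) (κ : E) : ∃ v : ι → F, Rp Q V c i j v (fun w =>
    κ * (hermForm 3 E q w e₂ * hermForm 3 E q w e₁ ^ q) + (κ * (hermForm 3 E q w e₂ * hermForm 3 E q w e₁ ^ q)) ^ q) := by
  have hE := D.hE
  obtain ⟨δ, hδ, hδt⟩ := exists_trace_zero_ne hE
  obtain ⟨ζ, hζ⟩ := exists_zeta hE
  have hq := two_le hE
  have hζ1 : ζ ^ q ≠ 1 := by
    intro h1
    have h2 := hζ.pow_eq_one_iff_dvd q |>.1 h1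
    have := Nat.le_of_dvd (by omega) h2
    omega
  have hζN : ζ * ζ ^ q = 1 := by rw [mul_comm, ← pow_succ]; exact hζ.pow_eq_one
  have hκ0 : δ * (1 - ζ ^ q) ≠ 0 := mul_ne_zero hδ (sub_ne_zero.2 hζ1.symm)
  set x := (κ / (δ * (1 - ζ ^ q))) ^ q with hx
  have hxq : x ^ q = κ / (δ * (1 - ζ ^ q)) := pow_q_pow_q hE _
  obtain ⟨y, hy⟩ := exists_root hE x
  have hy' : (y + δ) + (y + δ) ^ q + x * x ^ q = 0 := by
    rw [add_pow_q hE]
    linear_combination hy + hδt
  have hxζ : (ζ * x) * (ζ * x) ^ q = x * x ^ q := by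
    rw [mul_pow]
    linear_combination (x * x ^ q) * hζN
  have iso : ∀ a b : E, a + a ^ q + b * b ^ q = 0 →
      hermForm 3 E q (a • e₁ + b • e₂ + (1 : E) • e₃) (a • e₁ + b • e₂ + (1 : E) • e₃) = 0 := by
    intro a b hab
    rw [h.herm_comb hE, one_pow]
    linear_combination hab
  have ne : ∀ a b : E, a • e₁ + b • e₂ + (1 : E) • e₃ ≠ 0 := fun a b => h.comb_ne_zero hE one_ne_zero
  have hv := D.rp_sub (D.rp_sub (D.rp_add
    (D.rp_V ⟨(y + δ) • e₁ + x • e₂ + (1 : E) • e₃, iso _ _ hy', ne _ _⟩)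
    (D.rp_V ⟨y • e₁ + (ζ * x) • e₂ + (1 : E) • e₃, iso _ _ (by rw [hxζ]; exact hy), ne _ _⟩))
    (D.rp_V ⟨(y + δ) • e₁ + (ζ * x) • e₂ + (1 : E) • e₃, iso _ _ (by rw [hxζ]; exact hy'), ne _ _⟩))
    (D.rp_V ⟨y • e₁ + x • e₂ + (1 : E) • e₃, iso _ _ hy, ne _ _⟩)
  refine ⟨_, fun w => (hv w).trans ?_⟩
  congr 2
  have hκ : κ = δ * (1 - ζ ^ q) * x ^ q := by rw [hxq, mul_div_cancel₀ _ hκ0]
  simp only [herm_add_right hE, herm_smul_right, one_pow, one_mul]
  rw [hκ]
  simp only [mul_pow, add_pow_q hE, sub_pow_q hE, one_pow, pow_q_pow_q hE]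
  ring

end Dat

end Cfsg.Agent.H682.EP.SUn
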